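import Cfsg.Agent.H931.E6.Quot

/-!
# A vector fixed by `A₆` and the conclusion (helper931)
-/

set_option autoImplicit false

namespace Cfsg.Agent.H931.E6

open Equiv Equiv.Perm Module
open Cfsg.Agent.H952.F4 (ev es GenT)

variable {K V W : Type*} [Field K] [AddCommGroup V] [Module K V] [AddCommGroup W] [Module K W]

/-! ### `A₆` in `A₇` -/

/-- `Fin 6 ≃ {x : Fin 7 // x ≠ 6}` -/
def f6 : Fin 6 ≃ {x : Fin 7 // x ≠ Fin.last 6} := finSuccAboveEquiv (Fin.last 6)

/-- `A₆ → A₇` -/
def io : ↥(alternatingGroup (Fin 6)) →* T7 where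
  toFun h := ⟨(h : Perm (Fin 6)).extendDomain f6, by
    rw [mem_alternatingGroup, sign_extendDomain]; exact mem_alternatingGroup.1 h.2⟩
  map_one' := Subtype.ext (by simp)
  map_mul' a b := Subtype.ext (by
    simp only [Subgroup.coe_mul]
    exact (extendDomain_mul f6 _ _).symm)

theorem io_type (h : ↥(alternatingGroup (Fin 6))) :
    (io h : Perm (Fin 7)).cycleType = (h : Perm (Fin 6)).cycleType := cycleType_extendDomain f6

theorem exists_io {g : T7} (hg : (g : Perm (Fin 7)) 6 = 6) : ∃ h, io h = g := by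
  have hg' : ∀ x, x ≠ Fin.last 6 ↔ (g : Perm (Fin 7)) x ≠ Fin.last 6 := by
    intro x
    rw [not_iff_not]
    constructor
    · rintro rfl; exact hg
    · intro h
      exact (g : Perm (Fin 7)).injective (h.trans hg.symm)
  let s : Perm {x : Fin 7 // x ≠ Fin.last 6} := (g : Perm (Fin 7)).subtypePerm fun x => (hg' x).symm
  let h0 : Perm (Fin 6) := (f6.trans s).trans f6.symm
  have h1 : h0.extendDomain f6 = (g : Perm (Fin 7)) := by
    ext x
    by_cases hx : x = Fin.last 6
    · have h3 : h0.extendDomain f6 x = x := extendDomain_apply_not_subtype h0 f6 (by simpa using hx)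
      rw [h3, hx]
      exact congrArg Fin.val hg.symm
    · have h3 := extendDomain_apply_subtype h0 f6 hx
      rw [h3]
      simp [h0, s]
  have h2 : sign h0 = 1 := by
    have h3 : sign (h0.extendDomain f6) = sign h0 := by rw [sign_extendDomain]
    rw [h1] at h3
    exact h3.symm.trans (mem_alternatingGroup.1 g.2)
  exact ⟨⟨h0, mem_alternatingGroup.2 h2⟩, Subtype.ext h1⟩

theorem gen6 : GenT 6 {2, 2} {4, 2} {5} :=
  Cfsg.Agent.H952.F4.Gen.genT_of (n := 4) (c[1, 2] * c[4, 5]) (c[0, 1] * c[2, 3, 4, 5]) (by decide +kernel)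
    (by decide +kernel)
    ![[], [], [2, 0, 2, 2, 0, 3, 0], [0, 3, 0, 3, 0, 2, 0, 2, 2], [3, 0, 2, 2, 0, 3, 0, 2, 2], [3, 0, 2, 0, 2, 2, 0]]
    (by decide +kernel) (by decide +kernel) (by decide +kernel) (by decide +kernel)

/-! ### Seven vectors from a vector fixed by `A₆` -/

theorem exists_six (i : Fin 7) : ∃ g : T7, (g : Perm (Fin 7)) 6 = i := by
  by_cases h1 : i = 6
  · exact ⟨1, by rw [h1]; rfl⟩
  · obtain ⟨k, hk⟩ := pick [i, 6] (by simp)
    obtain ⟨l, hl⟩ := pick [i, 6, k] (by simp)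
    simp only [List.mem_cons, List.not_mem_nil, or_false, not_or] at hk hl
    refine ⟨dt 6 i k l (Ne.symm h1) (Ne.symm hl.2.2), ?_⟩
    change Equiv.swap 6 i (Equiv.swap k l 6) = i
    rw [swap_apply_of_ne_of_ne (Ne.symm hk.2) (Ne.symm hl.2.1), swap_apply_left]

theorem exists_seven {ρ : Representation K T7 V} (hfix : NoFix ρ) {w : V} (h0 : w ≠ 0)
    (hw : ∀ g : T7, (g : Perm (Fin 7)) 6 = 6 → ρ g w = w) : ∃ v, Seven ρ v ∧ v 0 ≠ 0 := by
  choose t ht using exists_six
  have h1 : ∀ (g : T7) i, (g : Perm (Fin 7)) 6 = i → ρ g w = ρ (t i) w := by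
    intro g i hg
    have h2 := hw ((t i)⁻¹ * g) (by
      change ((t i)⁻¹ : Perm (Fin 7)) ((g : Perm (Fin 7)) 6) = 6
      rw [hg]
      exact Equiv.Perm.inv_eq_iff_eq.2 (ht i).symm)
    have h3 := congrArg (ρ (t i)) h2
    rwa [← Module.End.mul_apply, ← map_mul, mul_inv_cancel_left] at h3
  have h4 : Seven ρ fun i => ρ (t i) w := by
    refine Seven.of_noFix hfix fun g i => ?_
    rw [← Module.End.mul_apply, ← map_mul]
    refine h1 _ _ ?_
    change (g : Perm (Fin 7)) ((t i : Perm (Fin 7)) 6) = _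
    rw [ht]
  refine ⟨_, h4, h4.ne_zero (i := 6) ?_⟩
  rw [hw (t 6) (ht 6)]
  exact h0

/-! ### Pairings -/

/-- an invariant perfect pairing -/
structure Pair {G : Type*} [Group G] (P : V →ₗ[K] W →ₗ[K] K) (ρ : Representation K G V) (ρ' : Representation K G W) :
    Prop where
  nd : ∀ v, (∀ w, P v w = 0) → v = 0
  nd' : ∀ w, (∀ v, P v w = 0) → w = 0
  inv : ∀ g v w, P (ρ g v) (ρ' g w) = P v w

theorem Pair.flip {G : Type*} [Group G] {P : V →ₗ[K] W →ₗ[K] K} {ρ : Representation K G V}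
    {ρ' : Representation K G W} (h : Pair P ρ ρ') : Pair P.flip ρ' ρ :=
  ⟨h.nd', h.nd, fun g w v => h.inv g v w⟩

theorem Pair.comp {G H : Type*} [Group G] [Group H] {P : V →ₗ[K] W →ₗ[K] K} {ρ : Representation K G V}
    {ρ' : Representation K G W} (h : Pair P ρ ρ') (f : H →* G) :
    Pair P (MonoidHom.comp ρ f) (MonoidHom.comp ρ' f) := ⟨h.nd, h.nd', fun g => h.inv (f g)⟩

theorem Pair.dual_inv {G : Type*} [Group G] [FiniteDimensional K V] [FiniteDimensional K W] {P : V →ₗ[K] W →ₗ[K] K}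
    {ρ : Representation K G V} {ρ' : Representation K G W} (h : Pair P ρ ρ')
    (h' : ∀ w, (∀ g, ρ' g w = w) → w = 0) : ρ.dual.invariants = ⊥ := by
  rw [eq_bot_iff]
  intro f hf
  rw [Representation.mem_invariants] at hf
  -- `P.flip : W → V*` is bijective
  have hi : Function.Injective P.flip := by
    rw [← LinearMap.ker_eq_bot, eq_bot_iff]
    intro w hw
    exact (Submodule.mem_bot K).2 (h.nd' w fun v => LinearMap.congr_fun (LinearMap.mem_ker.1 hw) v)
  have hi' : Function.Injective P := by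
    rw [← LinearMap.ker_eq_bot, eq_bot_iff]
    intro v hv
    exact (Submodule.mem_bot K).2 (h.nd v fun w => LinearMap.congr_fun (LinearMap.mem_ker.1 hv) w)
  have e1 : finrank K W ≤ finrank K V := by
    have := LinearMap.finrank_le_finrank_of_injective hi
    rwa [Subspace.dual_finrank_eq] at this
  have e2 : finrank K V ≤ finrank K W := by
    have := LinearMap.finrank_le_finrank_of_injective hi'
    rwa [Subspace.dual_finrank_eq] at this
  have hs : Function.Surjective P.flip := by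
    refine (LinearMap.injective_iff_surjective_of_finrank_eq_finrank ?_).1 hi
    rw [Subspace.dual_finrank_eq]
    omega
  obtain ⟨w, rfl⟩ := hs f
  have hw : w = 0 := by
    apply h'
    intro g
    have h3 : ∀ v, P v (ρ' g w - w) = 0 := by
      intro v
      have h4 := LinearMap.congr_fun (hf g) v
      change P (ρ g⁻¹ v) w = P v w at h4
      have h5 := h.inv g (ρ g⁻¹ v) w
      rw [← Module.End.mul_apply, ← map_mul, mul_inv_cancel, map_one, Module.End.one_apply] at h5
      rw [map_sub, h5, h4, sub_self]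
    exact sub_eq_zero.1 (h.nd' _ h3)
  rw [hw, map_zero]
  exact Submodule.zero_mem _

/-- **`A₆` has a fixed vector** -/
theorem exists_fixed [FiniteDimensional K V] [FiniteDimensional K W] {P : V →ₗ[K] W →ₗ[K] K}
    {ρ : Representation K T7 V} {ρ' : Representation K T7 W} (hP : Pair P ρ ρ') (h27 : finrank K V = 27)
    (hev2 : ∀ g : T7, (g : Perm (Fin 7)).cycleType = {2, 2} → 15 ≤ ev (ρ g) 1)
    (hev4 : ∀ g : T7, (g : Perm (Fin 7)).cycleType = {4, 2} → 7 ≤ ev (ρ g) 1)
    (hev5 : ∀ g : T7, (g : Perm (Fin 7)).cycleType = {5} → 6 ≤ ev (ρ g) 1) :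
    (∃ v, v ≠ 0 ∧ ∀ g : T7, (g : Perm (Fin 7)) 6 = 6 → ρ g v = v) ∨
      ∃ w, w ≠ 0 ∧ ∀ g : T7, (g : Perm (Fin 7)) 6 = 6 → ρ' g w = w := by
  obtain ⟨x, y, hgen, hx, hy, hxy⟩ := gen6
  by_contra hcon
  push Not at hcon
  obtain ⟨hc1, hc2⟩ := hcon
  have h1 := Cfsg.Agent.H952.F4.Scott.scott (MonoidHom.comp ρ io) hgen
  have a1 : Representation.invariants (MonoidHom.comp ρ io) = ⊥ := by
    rw [eq_bot_iff]
    intro v hv
    by_contra h0
    obtain ⟨g, hg, hne⟩ := hc1 v h0
    obtain ⟨h, rfl⟩ := exists_io hg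
    exact hne ((Representation.mem_invariants (ρ := MonoidHom.comp ρ io) v).1 hv h)
  have a2 : Representation.invariants (Representation.dual (MonoidHom.comp ρ io)) = ⊥ := by
    refine (hP.comp io).dual_inv fun w hw => ?_
    by_contra h0
    obtain ⟨g, hg, hne⟩ := hc2 w h0
    obtain ⟨h, rfl⟩ := exists_io hg
    exact hne (hw h)
  rw [a1, a2, finrank_bot, finrank_bot, h27] at h1
  have b1 := hev2 (io x) (by rw [io_type, hx])
  have b2 := hev4 (io y) (by rw [io_type, hy])
  have b3 := hev5 (io (x * y)) (by rw [io_type, hxy])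
  have c1 : ev ((MonoidHom.comp ρ io) x) 1 = ev (ρ (io x)) 1 := rfl
  have c2 : ev ((MonoidHom.comp ρ io) y) 1 = ev (ρ (io y)) 1 := rfl
  have c3 : ev ((MonoidHom.comp ρ io) (x * y)) 1 = ev (ρ (io (x * y))) 1 := rfl
  omega

theorem Equi.of_seven {C : Cub K V W} {ρ : Representation K T7 V} {ρ' : Representation K T7 W} (hA : Act C ρ ρ')
    {v : Fin 7 → V} (hv : Seven ρ v) : Equi ρ' fun i j => C.cr (v i) (v j) :=
  ⟨fun i j => C.symm _ _, fun g i j => by rw [← hA.cr, hv.act, hv.act]⟩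

theorem Four.dis {C : Cub K V W} {v : Fin 7 → V} (h : Four fun i j => C.cr (v i) (v j)) : Dis C v := by
  intro i j k l hij hik hil hjk hjl hkl
  have h1 := h i j k l hij hik hil hjk hjl hkl
  simp only [map_sub, LinearMap.sub_apply]
  have h2 : C.cr (v i) (v j) - C.cr (v k) (v j) - (C.cr (v i) (v l) - C.cr (v k) (v l)) =
      (C.cr (v i) (v j) + C.cr (v k) (v l)) - (C.cr (v i) (v l) + C.cr (v k) (v j)) := by abel
  rw [h2]
  simp only at h1
  rw [h1, sub_self]

/-- **The totally singular subspace.** -/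
theorem ts_exists [FiniteDimensional K V] [FiniteDimensional K W] (h2 : (2 : K) ≠ 0) (h7 : (7 : K) ≠ 0)
    {C : Cub K V W} {P : V →ₗ[K] W →ₗ[K] K} {ρ : Representation K T7 V} {ρ' : Representation K T7 W}
    (hA : Act C ρ ρ') (hP : Pair P ρ ρ') (hρ : NoFix ρ) (hρ' : NoFix ρ') (h27 : finrank K V = 27)
    (hev2 : ∀ g : T7, (g : Perm (Fin 7)).cycleType = {2, 2} → 15 ≤ ev (ρ g) 1)
    (hev4 : ∀ g : T7, (g : Perm (Fin 7)).cycleType = {4, 2} → 7 ≤ ev (ρ g) 1)
    (hev5 : ∀ g : T7, (g : Perm (Fin 7)).cycleType = {5} → 6 ≤ ev (ρ g) 1)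
    (hd : ∀ b, Equi ρ b → Four b) (hd' : ∀ b, Equi ρ' b → Four b) : TS C ρ ∨ TS C.swap ρ' := by
  have e1 : ∀ v, Seven ρ v → Dis C v := fun v hv => (hd' _ (Equi.of_seven hA hv)).dis
  have e2 : ∀ v, Seven ρ' v → Dis C.swap v := fun v hv => (hd _ (Equi.of_seven hA.swap hv)).dis
  rcases exists_fixed hP h27 hev2 hev4 hev5 with ⟨v, h0, hv⟩ | ⟨w, h0, hw⟩
  · obtain ⟨v, hv, h1⟩ := exists_seven hρ h0 hv
    exact ts_of_dis h2 h7 hA hρ hρ' e1 e2 hv h1
  · obtain ⟨v, hv, h1⟩ := exists_seven hρ' h0 hw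
    have h3 := ts_of_dis h2 h7 hA.swap hρ' hρ e2 e1 hv h1
    exact h3.symm

/-! ### Relations from elements of order 3 -/

/-- if `dim W^a = 15` for involutions and 3-cycles then the four-cycle relations hold -/
theorem four_of_ev [FiniteDimensional K W] (h2 : (2 : K) ≠ 0) (h3 : (3 : K) ≠ 0) {ρ : Representation K T7 W}
    (h27 : finrank K W = 27)
    (hev2 : ∀ g : T7, (g : Perm (Fin 7)).cycleType = {2, 2} → ev (ρ g) 1 = 15)
    (hev3 : ∀ g : T7, (g : Perm (Fin 7)).cycleType = {3} → 15 ≤ ev (ρ g) 1) {b : Fin 7 → Fin 7 → W} (hb : Equi ρ b) :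
    Four b := by
  intro i j k l hij hik hil hjk hjl hkl
  set e : W := b i j - b j k + b k l - b l i with he
  set a := dt i j k l hij hkl with ha
  set c := dt i k j l hik hjl with hc
  have ht0 : sign (Equiv.swap i j * Equiv.swap j k) = 1 := by
    rw [map_mul, sign_swap hij, sign_swap hjk]; rfl
  set t : T7 := ⟨Equiv.swap i j * Equiv.swap j k, mem_alternatingGroup.2 ht0⟩ with ht
  -- values
  have ai : (a : Perm (Fin 7)) i = j := by
    change Equiv.swap i j (Equiv.swap k l i) = j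
    rw [swap_apply_of_ne_of_ne hik hil, swap_apply_left]
  have aj : (a : Perm (Fin 7)) j = i := by
    change Equiv.swap i j (Equiv.swap k l j) = i
    rw [swap_apply_of_ne_of_ne hjk hjl, swap_apply_right]
  have ak : (a : Perm (Fin 7)) k = l := by
    change Equiv.swap i j (Equiv.swap k l k) = l
    rw [swap_apply_left, swap_apply_of_ne_of_ne hil.symm hjl.symm]
  have al : (a : Perm (Fin 7)) l = k := by
    change Equiv.swap i j (Equiv.swap k l l) = k
    rw [swap_apply_right, swap_apply_of_ne_of_ne hik.symm hjk.symm]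
  have ao : ∀ x, x ≠ i → x ≠ j → x ≠ k → x ≠ l → (a : Perm (Fin 7)) x = x := by
    intro x h1 h2 h3 h4
    change Equiv.swap i j (Equiv.swap k l x) = x
    rw [swap_apply_of_ne_of_ne h3 h4, swap_apply_of_ne_of_ne h1 h2]
  have ci : (c : Perm (Fin 7)) i = k := by
    change Equiv.swap i k (Equiv.swap j l i) = k
    rw [swap_apply_of_ne_of_ne hij hil, swap_apply_left]
  have cj : (c : Perm (Fin 7)) j = l := by
    change Equiv.swap i k (Equiv.swap j l j) = l
    rw [swap_apply_left, swap_apply_of_ne_of_ne hil.symm hkl.symm]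
  have ck : (c : Perm (Fin 7)) k = i := by
    change Equiv.swap i k (Equiv.swap j l k) = i
    rw [swap_apply_of_ne_of_ne hjk.symm hkl, swap_apply_right]
  have cl : (c : Perm (Fin 7)) l = j := by
    change Equiv.swap i k (Equiv.swap j l l) = j
    rw [swap_apply_right, swap_apply_of_ne_of_ne hij.symm hjk]
  have co : ∀ x, x ≠ i → x ≠ j → x ≠ k → x ≠ l → (c : Perm (Fin 7)) x = x := by
    intro x h1 h2 h3 h4
    change Equiv.swap i k (Equiv.swap j l x) = x
    rw [swap_apply_of_ne_of_ne h2 h4, swap_apply_of_ne_of_ne h1 h3]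
  have ti : (t : Perm (Fin 7)) i = j := by
    change Equiv.swap i j (Equiv.swap j k i) = j
    rw [swap_apply_of_ne_of_ne hij hik, swap_apply_left]
  have tj : (t : Perm (Fin 7)) j = k := by
    change Equiv.swap i j (Equiv.swap j k j) = k
    rw [swap_apply_left, swap_apply_of_ne_of_ne hik.symm hjk.symm]
  have tk : (t : Perm (Fin 7)) k = i := by
    change Equiv.swap i j (Equiv.swap j k k) = i
    rw [swap_apply_right, swap_apply_right]
  have tox : ∀ x, x ≠ i → x ≠ j → x ≠ k → (t : Perm (Fin 7)) x = x := by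
    intro x h1 h2 h3
    change Equiv.swap i j (Equiv.swap j k x) = x
    rw [swap_apply_of_ne_of_ne h2 h3, swap_apply_of_ne_of_ne h1 h2]
  have tl : (t : Perm (Fin 7)) l = l := tox l hil.symm hjl.symm hkl.symm
  -- group relations
  have ext4 : ∀ g h : T7, (g : Perm (Fin 7)) i = (h : Perm (Fin 7)) i → (g : Perm (Fin 7)) j = (h : Perm (Fin 7)) j →
      (g : Perm (Fin 7)) k = (h : Perm (Fin 7)) k → (g : Perm (Fin 7)) l = (h : Perm (Fin 7)) l →
      (∀ x, x ≠ i → x ≠ j → x ≠ k → x ≠ l → (g : Perm (Fin 7)) x = (h : Perm (Fin 7)) x) → g = h := by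
    intro g h h1 h2 h3 h4 h5
    refine Subtype.ext (Equiv.ext fun x => ?_)
    by_cases x1 : x = i
    · rw [x1, h1]
    by_cases x2 : x = j
    · rw [x2, h2]
    by_cases x3 : x = k
    · rw [x3, h3]
    by_cases x4 : x = l
    · rw [x4, h4]
    exact h5 x x1 x2 x3 x4
  have mul_app : ∀ (g h : T7) x, ((g * h : T7) : Perm (Fin 7)) x = (g : Perm (Fin 7)) ((h : Perm (Fin 7)) x) :=
    fun _ _ _ => rfl
  have one_app : ∀ x, ((1 : T7) : Perm (Fin 7)) x = x := fun _ => rfl
  have haa : a * a = 1 := ext4 _ _ (by rw [mul_app, ai, aj, one_app]) (by rw [mul_app, aj, ai, one_app])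
    (by rw [mul_app, ak, al, one_app]) (by rw [mul_app, al, ak, one_app])
    (fun x h1 h2 h3 h4 => by rw [mul_app, ao x h1 h2 h3 h4, ao x h1 h2 h3 h4, one_app])
  have hcc : c * c = 1 := ext4 _ _ (by rw [mul_app, ci, ck, one_app]) (by rw [mul_app, cj, cl, one_app])
    (by rw [mul_app, ck, ci, one_app]) (by rw [mul_app, cl, cj, one_app])
    (fun x h1 h2 h3 h4 => by rw [mul_app, co x h1 h2 h3 h4, co x h1 h2 h3 h4, one_app])
  have hca : c * a = a * c := ext4 _ _ (by rw [mul_app, mul_app, ai, cj, ci, ak])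
    (by rw [mul_app, mul_app, aj, ci, cj, al]) (by rw [mul_app, mul_app, ak, cl, ck, ai])
    (by rw [mul_app, mul_app, al, ck, cl, aj])
    (fun x h1 h2 h3 h4 => by rw [mul_app, mul_app, ao x h1 h2 h3 h4, co x h1 h2 h3 h4, ao x h1 h2 h3 h4])
  have ht3 : t ^ 3 = 1 := by
    rw [pow_succ, pow_two]
    exact ext4 _ _ (by rw [mul_app, mul_app, ti, tj, tk, one_app]) (by rw [mul_app, mul_app, tj, tk, ti, one_app])
      (by rw [mul_app, mul_app, tk, ti, tj, one_app]) (by rw [mul_app, mul_app, tl, tl, tl, one_app])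
      (fun x h1 h2 h3 _ => by rw [mul_app, mul_app, tox x h1 h2 h3, tox x h1 h2 h3, tox x h1 h2 h3, one_app])
  have htc : t * c = a * t := ext4 _ _ (by rw [mul_app, mul_app, ci, tk, ti, aj])
    (by rw [mul_app, mul_app, cj, tl, tj, ak]) (by rw [mul_app, mul_app, ck, ti, tk, ai])
    (by rw [mul_app, mul_app, cl, tj, tl, al])
    (fun x h1 h2 h3 h4 => by rw [mul_app, mul_app, co x h1 h2 h3 h4, tox x h1 h2 h3, ao x h1 h2 h3 h4])
  have hta : t * a = c * a * t := ext4 _ _ (by rw [mul_app, mul_app, mul_app, ai, tj, ti, aj, ci])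
    (by rw [mul_app, mul_app, mul_app, aj, ti, tj, ak, cl]) (by rw [mul_app, mul_app, mul_app, ak, tl, tk, ai, cj])
    (by rw [mul_app, mul_app, mul_app, al, tk, tl, al, ck])
    (fun x h1 h2 h3 h4 => by
      rw [mul_app, mul_app, mul_app, ao x h1 h2 h3 h4, tox x h1 h2 h3, ao x h1 h2 h3 h4, co x h1 h2 h3 h4])
  have tya : (a : Perm (Fin 7)).cycleType = {2, 2} := by
    have hd : (Equiv.swap i j).Disjoint (Equiv.swap k l) := by
      rw [disjoint_iff_disjoint_support, support_swap hij, support_swap hkl]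
      simp [hik.symm, hil.symm, hjk.symm, hjl.symm]
    change (Equiv.swap i j * Equiv.swap k l).cycleType = _
    rw [hd.cycleType_mul, (isSwap_iff_cycleType.1 ⟨i, j, hij, rfl⟩), (isSwap_iff_cycleType.1 ⟨k, l, hkl, rfl⟩)]
    rfl
  have tyc : (c : Perm (Fin 7)).cycleType = {2, 2} := by
    have hd : (Equiv.swap i k).Disjoint (Equiv.swap j l) := by
      rw [disjoint_iff_disjoint_support, support_swap hik, support_swap hjl]
      simp [hij.symm, hil.symm, hjk, hkl.symm]
    change (Equiv.swap i k * Equiv.swap j l).cycleType = _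
    rw [hd.cycleType_mul, (isSwap_iff_cycleType.1 ⟨i, k, hik, rfl⟩), (isSwap_iff_cycleType.1 ⟨j, l, hjl, rfl⟩)]
    rfl
  have tyca : ((c * a : T7) : Perm (Fin 7)).cycleType = {2, 2} := by
    have h1 : c * a = t * a * t⁻¹ := by rw [hta]; group
    rw [h1]
    change ((t : Perm (Fin 7)) * a * (t : Perm (Fin 7))⁻¹).cycleType = _
    rw [cycleType_conj, tya]
  have tyt : (t : Perm (Fin 7)).cycleType = {3} := by
    have h1 : (t : Perm (Fin 7)).IsThreeCycle := by
      change (Equiv.swap i j * Equiv.swap j k).IsThreeCycle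
      rw [swap_comm i j]
      exact isThreeCycle_swap_mul_swap_same hij.symm hjk hik
    exact h1
  -- dimensions
  have d1 := Cfsg.Agent.H952.F4.Eig.four h2 ρ hcc haa hca
  rw [h27, hev2 c tyc, hev2 a tya, hev2 _ tyca] at d1
  have d2 := Cfsg.Agent.H952.F4.Eig.a4 h2 ρ hcc haa hca ht3 (by rw [htc]; group) (by rw [hta]; group)
  rw [h27] at d2
  have d3 := hev3 t tyt
  have d4 : es (ρ c) 1 ⊓ es (ρ a) 1 ⊓ es (ρ t) 1 = es (ρ c) 1 ⊓ es (ρ a) 1 :=
    Submodule.eq_of_le_of_finrank_le inf_le_left (by omega)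
  have m1 : ρ a e = e := by
    rw [he, map_sub, map_add, map_sub, hb.act, hb.act, hb.act, hb.act, ai, aj, ak, al, hb.symm j i, hb.symm l k,
      hb.symm k j, hb.symm l i]
    abel
  have m2 : ρ c e = e := by
    rw [he, map_sub, map_add, map_sub, hb.act, hb.act, hb.act, hb.act, ci, cj, ck, cl]
    abel
  have m3 : ρ t e = e := by
    have h1 : e ∈ es (ρ c) 1 ⊓ es (ρ a) 1 := ⟨mem_es1.2 m2, mem_es1.2 m1⟩
    rw [← d4] at h1
    exact mem_es1.1 h1.2
  have m4 : e + ρ t e + ρ t (ρ t e) = 0 := by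
    rw [he]
    simp only [map_sub, map_add, hb.act, ti, tj, tk, tl]
    rw [hb.symm l i, hb.symm l j, hb.symm l k]
    abel
  rw [m3, m3] at m4
  have m5 : (3 : K) • e = 0 := by
    rw [← m4]; module
  have m6 := (smul_eq_zero.1 m5).resolve_left h3
  rw [← sub_eq_zero, ← m6, he, hb.symm j k, hb.symm l i]
  abel

end Cfsg.Agent.H931.E6
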