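import Cfsg.Agent.H931.E6.Eleven
import Cfsg.Agent.H931.E6.Fix
import Cfsg.Agent.H333.E6Act
import Cfsg.Agent.H163.E6.Sit
import Cfsg.Agent.H944.E6Tab
import Cfsg.Agent.H952.F4.Jord
import Cfsg.Agent.H952.F4.Gen

/-!
# S5927, S5928: `A₇`, characteristic 3 and at least 11 (helper931)
-/

set_option autoImplicit false

namespace Cfsg.Agent.H931.E6

open Cfsg Cfsg.Lie Module
open Equiv (Perm)
open Cfsg.Agent.ChevalleyStructure.E6Min.Tables Cfsg.Agent.ChevalleyStructure.E6Min.Basic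
  Cfsg.Agent.ChevalleyStructure.E6Min.Adjoint
open Cfsg.Agent.H952.F4 (ev es sh cr tf)
open Cfsg.Agent.H163.E6 (V V' Lift Stab Sit Tab scal)

universe u

/-! ### The crosses of the 27-dimensional modules -/

/-- the bilinear cross -/
noncomputable def crL (F : Type u) [Field F] : (I27 → F) →ₗ[F] (I27 → F) →ₗ[F] (I27 → F) :=
  LinearMap.mk₂ F cr Cfsg.Agent.H952.F4.Jord.cr_add_left Cfsg.Agent.H952.F4.Jord.cr_smul_left
    Cfsg.Agent.H952.F4.Jord.cr_add_right Cfsg.Agent.H952.F4.Jord.cr_smul_right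

/-- the pairing -/
noncomputable def tfL (F : Type u) [Field F] : (I27 → F) →ₗ[F] (I27 → F) →ₗ[F] F :=
  LinearMap.mk₂ F tf Cfsg.Agent.H952.F4.Jord.tf_add_left Cfsg.Agent.H952.F4.Jord.tf_smul_left
    Cfsg.Agent.H952.F4.Jord.tf_add_right Cfsg.Agent.H952.F4.Jord.tf_smul_right

theorem crL_apply {F : Type u} [Field F] (x y : I27 → F) : crL F x y = cr x y := rfl
theorem tfL_apply {F : Type u} [Field F] (x y : I27 → F) : tfL F x y = tf x y := rfl

theorem cr_four {F : Type u} [Field F] (x : I27 → F) : cr (cr x x) (cr x x) = (8 * cubicT x) • x := by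
  rw [Cfsg.Agent.H952.F4.Jord.cr_self, Cfsg.Agent.H952.F4.Jord.cr_self, Cfsg.Agent.H952.F4.Jord.sh_smul,
    Cfsg.Agent.H952.F4.Jord.sh_sh, smul_smul, smul_smul]
  congr 1
  ring

/-- the pair of cubic spaces -/
noncomputable def cub (F : Type u) [Field F] : Cub F (I27 → F) (I27 → F) where
  cr := crL F
  cr' := crL F
  symm := Cfsg.Agent.H952.F4.Jord.cr_comm
  symm' := Cfsg.Agent.H952.F4.Jord.cr_comm
  N x := 8 * cubicT x
  N' x := 8 * cubicT x
  four := cr_four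
  four' := cr_four

variable {F : Type u} [Field F]

theorem act_cub (ψ : T7 →* ↥(Zgrp F)) : Act (cub F) (MonoidHom.comp (V F) ψ) (MonoidHom.comp (V' F) ψ) :=
  ⟨fun g x y => Cfsg.Agent.H163.E6.Act.cr_act (ψ g) x y, fun g x y => Cfsg.Agent.H163.E6.Act.cr_act' (ψ g) x y⟩

theorem pair_tf (ψ : T7 →* ↥(Zgrp F)) : Pair (tfL F) (MonoidHom.comp (V F) ψ) (MonoidHom.comp (V' F) ψ) :=
  ⟨fun _ h => Cfsg.Agent.H952.F4.Jord.tf_nondeg h,
    fun w h => Cfsg.Agent.H952.F4.Jord.tf_nondeg fun v => (Cfsg.Agent.H952.F4.Jord.tf_comm w v).trans (h v),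
    fun g x y => Cfsg.Agent.H163.E6.Act.tf_act (ψ g) x y⟩

theorem finrank27 : finrank F (I27 → F) = 27 := by
  rw [Module.finrank_fintype_fun_eq_card]
  rfl

/-! ### Stability -/

theorem coe_scal (c : Fˣ) : ((scal c : GL I27 F) : Matrix I27 I27 F) = (c : F) • (1 : Matrix I27 I27 F) :=
  Algebra.algebraMap_eq_smul_one (c : F)

theorem V_scal {g : ↥(Zgrp F)} {c : Fˣ} (h : (g : GL I27 F) = scal c) (w : I27 → F) : V F g w = (c : F) • w := by
  rw [Cfsg.Agent.H163.E6.V_apply, h, coe_scal, Matrix.smul_mulVec, Matrix.one_mulVec]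

theorem V'_scal {g : ↥(Zgrp F)} {c : Fˣ} (h : (g : GL I27 F) = scal c) (w : I27 → F) :
    V' F g w = ((c⁻¹ : Fˣ) : F) • w := by
  have h1 : (scal c : GL I27 F)⁻¹ = scal c⁻¹ := (map_inv (Units.map
    (algebraMap F (Matrix I27 I27 F)).toMonoidHom) c).symm
  have h2 : Cfsg.Agent.H184.GraphE6.dual (scal c : GL I27 F) = scal c⁻¹ := by
    refine Units.ext ?_
    rw [Cfsg.Agent.H184.GraphE6.coe_dual, h1, coe_scal, Matrix.transpose_smul, Matrix.transpose_one]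
  have h3 : ((Cfsg.Agent.H184.GraphE6.gU (scal c) : GL I27 F) : Matrix I27 I27 F) =
      ((c⁻¹ : Fˣ) : F) • (1 : Matrix I27 I27 F) := by
    rw [Cfsg.Agent.H184.GraphE6.gU, h2, Units.val_mul, Units.val_mul, Cfsg.Agent.H184.GraphE6.coe_PU, coe_scal,
      Matrix.mul_smul, Matrix.smul_mul, Matrix.mul_one, Cfsg.Agent.H184.GraphE6.PM_sq]
  rw [Cfsg.Agent.H163.E6.V'_apply, h, h3, Matrix.smul_mulVec, Matrix.one_mulVec]

theorem stab_lift {n : ℕ} {φ : ↥(alternatingGroup (Fin n)) →* ↥(chevE6.group F)}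
    {ρ : Representation F ↥(Zgrp F) (I27 → F)} (hρ : ρ = V F ∨ ρ = V' F)
    {ψ : ↥(alternatingGroup (Fin n)) →* ↥(Zgrp F)} (hψ : Lift φ ψ) {W : Submodule F (I27 → F)}
    (hW : ∀ a, ∀ w ∈ W, ρ (ψ a) w ∈ W) : Stab ρ φ.range W := by
  rintro g ⟨a, ha⟩ w hw
  have h1 : ad F (g * (ψ a)⁻¹) = 1 := by
    rw [map_mul, map_inv, hψ a, ← ha, mul_inv_cancel]
  obtain ⟨c, -, hc⟩ := (Cfsg.Agent.H163.E6.Act.ad_eq_one_iff _).1 h1
  have h2 : ρ g w = ρ (g * (ψ a)⁻¹) (ρ (ψ a) w) := by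
    rw [← Module.End.mul_apply, ← map_mul, inv_mul_cancel_right]
  rw [h2]
  rcases hρ with rfl | rfl
  · rw [V_scal hc]
    exact W.smul_mem _ (hW a w hw)
  · rw [V'_scal hc]
    exact W.smul_mem _ (hW a w hw)

/-- seven singular vectors contradict the hypothesis on totally singular subspaces -/
theorem ts_false {H : Subgroup ↥(chevE6.group F)} {φ : T7 →* ↥(chevE6.group F)} (hS : Sit H 7 φ)
    {ψ : T7 →* ↥(Zgrp F)} (hψ : Lift φ ψ) (h2 : (2 : F) ≠ 0) (h7 : (7 : F) ≠ 0)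
    {ρ : Representation F ↥(Zgrp F) (I27 → F)} (hρ : ρ = V F ∨ ρ = V' F) (h : TS (cub F) (MonoidHom.comp ρ ψ)) :
    False := by
  obtain ⟨v, hv, h0, hc⟩ := h
  refine hS.no_six ρ hρ (Submodule.span F (Set.range v)) (stab_lift hρ hψ fun a w hw => hv.span_stable a hw)
    (hv.finrank h7 h0) ⟨fun x hx => ?_, fun x hx y hy => cross_span hc hx hy⟩
  have h1 : cr x x = 0 := cross_span hc hx hx
  rw [Cfsg.Agent.H952.F4.Jord.cr_self] at h1
  exact (smul_eq_zero.1 h1).resolve_left h2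

/-! ### Eigenvalues -/

theorem lift_inj {φ : T7 →* ↥(chevE6.group F)} {ψ : T7 →* ↥(Zgrp F)} (hi : Function.Injective φ)
    (hψ : Lift φ ψ) : Function.Injective ψ := fun a b h => hi (by rw [← hψ, ← hψ, h])

theorem pow_of_type {g : T7} {s : Multiset ℕ} {n : ℕ} (hg : (g : Perm (Fin 7)).cycleType = s) (h : s.lcm = n) :
    g ^ n = 1 :=
  Subtype.ext (by rw [Subgroup.coe_pow, ← h, ← hg, Equiv.Perm.lcm_cycleType, pow_orderOf_eq_one]; rfl)

theorem ne_one_of_type {g : T7} {s : Multiset ℕ} (hg : (g : Perm (Fin 7)).cycleType = s) (h : s ≠ 0) : g ≠ 1 := by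
  rintro rfl
  exact h (by rw [← hg]; exact Equiv.Perm.cycleType_one)

section nums
variable {p : ℕ} {ψ : T7 →* ↥(Zgrp F)}

theorem tw (hT : Tab p F) (hi : Function.Injective ψ) (hp : p ≠ 2) {g : T7}
    (hg : (g : Perm (Fin 7)).cycleType = {2, 2}) : ev (V F (ψ g)) 1 = 15 ∨ ev (V F (ψ g)) 1 = 11 := by
  have h1 : ψ g ≠ 1 := fun h => ne_one_of_type hg (by decide) (hi (h.trans (map_one ψ).symm))
  have h2 : ψ g * ψ g = 1 := by rw [← map_mul, ← pow_two, pow_of_type hg (by decide), map_one]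
  rcases hT.two hp (ψ g) h1 h2 with h | h
  · exact Or.inl h.1
  · exact Or.inr h.1

theorem fo (hT : Tab p F) (hi : Function.Injective ψ) (hp : p ≠ 2) {g : T7}
    (hg : (g : Perm (Fin 7)).cycleType = {4, 2}) :
    (ev (V F (ψ (g * g))) 1 = 15 ∧ 7 ≤ ev (V F (ψ g)) 1) ∨
      (ev (V F (ψ (g * g))) 1 = 11 ∧ (ev (V F (ψ g)) 1 = 9 ∨ ev (V F (ψ g)) 1 = 5)) := by
  have h1 : ψ g * ψ g ≠ 1 := fun h => ne_one_of_type (sq_type hg) (by decide)
    (hi (((map_mul ψ g g).trans h).trans (map_one ψ).symm))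
  have h2 : ψ g ^ 4 = 1 := by rw [← map_pow, pow_of_type hg (by decide), map_one]
  obtain ⟨k, hk⟩ := four_conj hg
  have h3 : ∃ x, x * ψ g * x⁻¹ = (ψ g)⁻¹ := ⟨ψ k, by rw [← map_inv, ← map_mul, ← map_mul, hk, map_inv]⟩
  rw [map_mul]
  rcases hT.four_real hp (ψ g) h1 h2 h3 with ⟨a, b, -⟩ | ⟨a, b, -⟩ | ⟨a, b, -⟩ | ⟨a, b, -⟩ | ⟨a, b, -⟩ <;> omega

theorem fi (hT : Tab p F) (hi : Function.Injective ψ) (hp : p ≠ 5) {g : T7}
    (hg : (g : Perm (Fin 7)).cycleType = {5}) :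
    ev (V F (ψ g)) 1 = 7 ∧ LinearMap.trace F _ (V F (ψ g)) = 2 := by
  have h1 : ψ g ≠ 1 := fun h => ne_one_of_type hg (by decide) (hi (h.trans (map_one ψ).symm))
  have h2 : ψ g ^ 5 = 1 := by rw [← map_pow, pow_of_type hg (by decide), map_one]
  obtain ⟨k, hk⟩ := five_conj hg
  have h3 : ∃ x, x * ψ g * x⁻¹ = (ψ g) ^ 2 := ⟨ψ k, by rw [← map_inv, ← map_mul, ← map_mul, hk, map_pow]⟩
  obtain ⟨a, -, b, -⟩ := hT.five_rat hp (ψ g) h1 h2 h3
  exact ⟨a, b⟩

theorem se (hT : Tab p F) (hi : Function.Injective ψ) (hp : p ≠ 7) {g : T7}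
    (hg : (g : Perm (Fin 7)).cycleType = {7}) :
    ev (V F (ψ g)) 1 = 9 ∨ ev (V F (ψ g)) 1 ≤ 3 := by
  have h1 : ψ g ≠ 1 := fun h => ne_one_of_type hg (by decide) (hi (h.trans (map_one ψ).symm))
  have h2 : ψ g ^ 7 = 1 := by rw [← map_pow, pow_of_type hg (by decide), map_one]
  obtain ⟨k, hk⟩ := seven_conj hg
  have h3 : ∃ x, x * ψ g * x⁻¹ = (ψ g) ^ 2 := ⟨ψ k, by rw [← map_inv, ← map_mul, ← map_mul, hk, map_pow]⟩
  rcases hT.seven_rat hp (ψ g) h1 h2 h3 with h | h | h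
  · exact Or.inl h.1
  · exact Or.inr (by omega)
  · exact Or.inr (by omega)

/-- in characteristic different from 2 and 5 the involutions have `ev = 15` -/
theorem all_fifteen (p : ℕ) [Fact p.Prime] [Finite F] [CharP F p] (hp2 : p ≠ 2) (hp5 : p ≠ 5) (h2 : (2 : F) ≠ 0)
    (h5 : (5 : F) ≠ 0) (hi : Function.Injective ψ) {g : T7} (hg : (g : Perm (Fin 7)).cycleType = {2, 2}) :
    ev (V F (ψ g)) 1 = 15 := by
  have hT : Tab p F := Cfsg.Agent.H163.E6.Tor.tab p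
  rcases tw hT hi hp2 hg with h | h
  · exact h
  exfalso
  have hall : ∀ g' : T7, (g' : Perm (Fin 7)).cycleType = {2, 2} → ev (V F (ψ g')) 1 = 11 := by
    intro g' hg'
    obtain ⟨k, hk⟩ := two_conj hg hg'
    rw [← hk]
    exact (ev_conj (MonoidHom.comp (V F) ψ) k g 1).trans h
  let K := AlgebraicClosure F
  let f : F →+* K := algebraMap F K
  let ρ : Representation K T7 (I27 → K) := MonoidHom.comp (V K) ((Cfsg.Agent.H944.E6T.jm f).comp ψ)
  have hev : ∀ g, ev (ρ g) 1 = ev (V F (ψ g)) 1 := by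
    intro g
    have h1 := Cfsg.Agent.H944.E6T.ev_V f (ψ g) 1
    rw [map_one] at h1
    exact h1
  have htr : ∀ g, LinearMap.trace K _ (ρ g) = f (LinearMap.trace F _ (V F (ψ g))) := fun g =>
    Cfsg.Agent.H944.E6T.trace_V f (ψ g)
  have k2 : (2 : K) ≠ 0 := by
    intro h'
    exact h2 (f.injective (by rw [map_ofNat, map_zero]; exact h'))
  have k5 : (5 : K) ≠ 0 := by
    intro h'
    exact h5 (f.injective (by rw [map_ofNat, map_zero]; exact h'))
  refine no_eleven k2 k5 ρ finrank27 (fun g hg => by rw [hev, hall g hg]) (fun g hg => ?_) ?_ ?_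
  · rw [hev]
    rcases fo hT hi hp2 hg with ⟨h1, -⟩ | ⟨-, h1⟩
    · rw [hall _ (sq_type hg)] at h1
      omega
    · exact h1
  · rw [hev, (fi hT hi hp5 r5_type).1]
  · rw [htr, (fi hT hi hp5 r5_type).2, map_ofNat]

end nums

section finish
variable {H : Subgroup ↥(chevE6.group F)} {φ : T7 →* ↥(chevE6.group F)} {ψ : T7 →* ↥(Zgrp F)}

theorem noFix (hS : Sit H 7 φ) (hψ : Lift φ ψ) : NoFix (MonoidHom.comp (V F) ψ) := by
  intro v hv
  have h1 : v ∈ Representation.invariants (MonoidHom.comp (V F) ψ) :=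
    (Representation.mem_invariants (ρ := MonoidHom.comp (V F) ψ) v).2 hv
  rw [(hS.no_fixed ψ hψ).1] at h1
  exact (Submodule.mem_bot F).1 h1

theorem noFix' (hS : Sit H 7 φ) (hψ : Lift φ ψ) : NoFix (MonoidHom.comp (V' F) ψ) := by
  intro v hv
  have h1 : v ∈ Representation.invariants (MonoidHom.comp (V' F) ψ) :=
    (Representation.mem_invariants (ρ := MonoidHom.comp (V' F) ψ) v).2 hv
  rw [(hS.no_fixed ψ hψ).2] at h1
  exact (Submodule.mem_bot F).1 h1

theorem ev' (g : T7) : ev (MonoidHom.comp (V' F) ψ g) 1 = ev (V F (ψ g)) 1 := by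
  have h1 := Cfsg.Agent.H163.E6.Act.ev_dual (ψ g) (one_ne_zero (α := F))
  rw [inv_one] at h1
  exact h1

theorem conclude (hS : Sit H 7 φ) (hψ : Lift φ ψ) (h2 : (2 : F) ≠ 0) (h7 : (7 : F) ≠ 0)
    (hev2 : ∀ g : T7, (g : Perm (Fin 7)).cycleType = {2, 2} → 15 ≤ ev (V F (ψ g)) 1)
    (hev4 : ∀ g : T7, (g : Perm (Fin 7)).cycleType = {4, 2} → 7 ≤ ev (V F (ψ g)) 1)
    (hev5 : ∀ g : T7, (g : Perm (Fin 7)).cycleType = {5} → 6 ≤ ev (V F (ψ g)) 1)
    (hd : ∀ b, Equi (MonoidHom.comp (V F) ψ) b → Four b) (hd' : ∀ b, Equi (MonoidHom.comp (V' F) ψ) b → Four b) :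
    False := by
  rcases ts_exists h2 h7 (act_cub ψ) (pair_tf ψ) (noFix hS hψ) (noFix' hS hψ) finrank27 hev2 hev4 hev5 hd hd' with h | h
  · exact ts_false hS hψ h2 h7 (Or.inl rfl) h
  · exact ts_false hS hψ h2 h7 (Or.inr rfl) h

end finish

end Cfsg.Agent.H931.E6

namespace Cfsg.Agent.H163.E6.Cases

open Cfsg Cfsg.Lie Module
open Cfsg.Agent.ChevalleyStructure.E6Min.Tables Cfsg.Agent.ChevalleyStructure.E6Min.Basic
  Cfsg.Agent.ChevalleyStructure.E6Min.Adjoint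
open Cfsg.Agent.H952.F4 (ev es)
open Cfsg.Agent.H931.E6

universe u

variable {F : Type u} [Field F] [Finite F] {H : Subgroup ↥(chevE6.group F)}
  {φ : ↥(alternatingGroup (Fin 7)) →* ↥(chevE6.group F)}

theorem seven_big (p : ℕ) [Fact p.Prime] [CharP F p] (hp : 11 ≤ p) (hS : Sit H 7 φ)
    {ψ : ↥(alternatingGroup (Fin 7)) →* ↥(Zgrp F)} (hψ : Lift φ ψ) : False := by
  have hc : ∀ n : ℕ, 0 < n → n < 11 → (n : F) ≠ 0 := by
    intro n h0 h1 h
    have h2 := Nat.le_of_dvd h0 ((CharP.cast_eq_zero_iff F p n).1 h)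
    omega
  have h2 : (2 : F) ≠ 0 := by exact_mod_cast hc 2 (by norm_num) (by norm_num)
  have h3 : (3 : F) ≠ 0 := by exact_mod_cast hc 3 (by norm_num) (by norm_num)
  have h5 : (5 : F) ≠ 0 := by exact_mod_cast hc 5 (by norm_num) (by norm_num)
  have h7 : (7 : F) ≠ 0 := by exact_mod_cast hc 7 (by norm_num) (by norm_num)
  have hT : Tab p F := Tor.tab p
  have hi := lift_inj hS.inj hψ
  have e2 : ∀ g : T7, (g : Equiv.Perm (Fin 7)).cycleType = {2, 2} → ev (V F (ψ g)) 1 = 15 := fun g hg =>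
    all_fifteen p (by omega) (by omega) h2 h5 hi hg
  have e5 : ∀ g : T7, (g : Equiv.Perm (Fin 7)).cycleType = {5} → ev (V F (ψ g)) 1 = 7 := fun g hg =>
    (fi hT hi (by omega) hg).1
  refine conclude hS hψ h2 h7 (fun g hg => (e2 g hg).ge) (fun g hg => ?_) (fun g hg => by rw [e5 g hg]; norm_num)
    (fun b hb => ?_) fun b hb => ?_
  · rcases fo hT hi (by omega) hg with h | h
    · exact h.2
    · have := e2 _ (sq_type hg)
      omega
  · exact four_ne_three h2 h3 h5 h7 finrank27 (noFix hS hψ) ((pair_tf ψ).dual_inv (noFix' hS hψ))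
      (fun g hg => (e5 g hg).ge) hb
  · exact four_ne_three h2 h3 h5 h7 finrank27 (noFix' hS hψ) ((pair_tf ψ).flip.dual_inv (noFix hS hψ))
      (fun g hg => by rw [ev', e5 g hg]) hb

theorem seven_three [CharP F 3] (hS : Sit H 7 φ) {ψ : ↥(alternatingGroup (Fin 7)) →* ↥(Zgrp F)}
    (hψ : Lift φ ψ) : False := by
  have h3 : (3 : F) = 0 := by exact_mod_cast CharP.cast_eq_zero F 3
  have h2 : (2 : F) ≠ 0 := fun h => one_ne_zero (α := F) (by linear_combination h3 - h)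
  have h5 : (5 : F) ≠ 0 := fun h => one_ne_zero (α := F) (by linear_combination 2 * h3 - h)
  have h7 : (7 : F) ≠ 0 := fun h => one_ne_zero (α := F) (by linear_combination h - 2 * h3)
  have : Fact (Nat.Prime 3) := ⟨Nat.prime_three⟩
  have hT : Tab 3 F := Tor.tab 3
  have hi := lift_inj hS.inj hψ
  have e2 : ∀ g : T7, (g : Equiv.Perm (Fin 7)).cycleType = {2, 2} → ev (V F (ψ g)) 1 = 15 := fun g hg =>
    all_fifteen 3 (by omega) (by omega) h2 h5 hi hg
  have e5 : ∀ g : T7, (g : Equiv.Perm (Fin 7)).cycleType = {5} → ev (V F (ψ g)) 1 = 7 := fun g hg =>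
    (fi hT hi (by omega) hg).1
  obtain ⟨x, y, hgen, hx, hy, hxy⟩ := Cfsg.Agent.H952.F4.Gen.gen7
  have hs := Cfsg.Agent.H952.F4.Scott.scott (MonoidHom.comp (V F) ψ) hgen
  rw [(hS.no_fixed ψ hψ).1, (pair_tf ψ).dual_inv (noFix' hS hψ), finrank_bot, finrank_bot, finrank27] at hs
  have s1 : ev (MonoidHom.comp (V F) ψ x) 1 = 15 := e2 x hx
  have s2 : ev (MonoidHom.comp (V F) ψ y) 1 = 7 := e5 y hy
  have s3 : ev (MonoidHom.comp (V F) ψ (x * y)) 1 = ev (V F (ψ (x * y))) 1 := rfl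
  have s4 := se hT hi (by omega) hxy
  have s5 : ev (V F (ψ (x * y))) 1 ≤ 3 := by omega
  have s6 := pow_of_type hxy (n := 7) (by decide)
  refine conclude hS hψ h2 h7 (fun g hg => (e2 g hg).ge) (fun g hg => ?_) (fun g hg => by rw [e5 g hg]; norm_num)
    (fun b hb => ?_) fun b hb => ?_
  · rcases fo hT hi (by omega) hg with h | h
    · exact h.2
    · have := e2 _ (sq_type hg)
      omega
  · exact four_three h3 finrank27 (noFix hS hψ) ((pair_tf ψ).dual_inv (noFix' hS hψ))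
      (fun g hg => (e5 g hg).ge) s6 s5 hb
  · exact four_three h3 finrank27 (noFix' hS hψ) ((pair_tf ψ).flip.dual_inv (noFix hS hψ))
      (fun g hg => by rw [ev', e5 g hg]) s6 (by rw [ev']; exact s5) hb

/-- characteristic 5, when the involutions and the 3-cycles have `ev = 15` -/
theorem seven_five_15 [CharP F 5] (hS : Sit H 7 φ) {ψ : ↥(alternatingGroup (Fin 7)) →* ↥(Zgrp F)}
    (hψ : Lift φ ψ)
    (hev2 : ∀ g : ↥(alternatingGroup (Fin 7)), (g : Equiv.Perm (Fin 7)).cycleType = {2, 2} → ev (V F (ψ g)) 1 = 15)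
    (hev3 : ∀ g : ↥(alternatingGroup (Fin 7)), (g : Equiv.Perm (Fin 7)).cycleType = {3} →
      15 ≤ ev (V F (ψ g)) 1) : False := by
  have h5 : (5 : F) = 0 := by exact_mod_cast CharP.cast_eq_zero F 5
  have h2 : (2 : F) ≠ 0 := fun h => one_ne_zero (α := F) (by linear_combination h5 - 2 * h)
  have h3 : (3 : F) ≠ 0 := fun h => one_ne_zero (α := F) (by linear_combination 2 * h - h5)
  have h7 : (7 : F) ≠ 0 := fun h => one_ne_zero (α := F) (by linear_combination 3 * h5 - 2 * h)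
  have : Fact (Nat.Prime 5) := ⟨Nat.prime_five⟩
  have hT : Tab 5 F := Tor.tab 5
  have hi := lift_inj hS.inj hψ
  refine conclude hS hψ h2 h7 (fun g hg => (hev2 g hg).ge) (fun g hg => ?_) (fun g hg => ?_)
    (fun b hb => ?_) fun b hb => ?_
  · rcases fo hT hi (by omega) hg with h | h
    · exact h.2
    · have := hev2 _ (sq_type hg)
      omega
  · have h := Cfsg.Agent.H952.F4.Eig.le_mul_ev 5 (T := V F (ψ g)) (by
      rw [← map_pow, ← map_pow, pow_of_type hg (n := 5) (by decide), map_one, map_one])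
    rw [finrank27] at h
    omega
  · exact four_of_ev (ρ := MonoidHom.comp (V F) ψ) h2 h3 finrank27 (fun g hg => hev2 g hg) (fun g hg => hev3 g hg) hb
  · exact four_of_ev (ρ := MonoidHom.comp (V' F) ψ) h2 h3 finrank27 (fun g hg => by rw [ev', hev2 g hg]) (fun g hg => by rw [ev']; exact hev3 g hg) hb

end Cfsg.Agent.H163.E6.Cases
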