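import Mathlib

/-!
# Pairs of cubic spaces with an action of `A₇` (helper931)

`Cub K V W` : two spaces with symmetric crosses `V × V → W`, `W × W → V` and `(x × x) × (x × x) = N(x) x`.
`Seven ρ v` : seven vectors with sum `0` permuted by `A₇`.
If `(v_a - v_c) × (v_b - v_d) = 0` for distinct `a, b, c, d` (and the same in `W`), then `V` or `W` contains seven
vectors, permuted by `A₇`, not all zero, with all crosses zero.
-/

set_option autoImplicit false

namespace Cfsg.Agent.H931.E6

open Equiv Equiv.Perm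

/-- Two spaces with crosses. -/
structure Cub (K V W : Type*) [Field K] [AddCommGroup V] [Module K V] [AddCommGroup W] [Module K W] where
  cr : V →ₗ[K] V →ₗ[K] W
  cr' : W →ₗ[K] W →ₗ[K] V
  symm : ∀ x y, cr x y = cr y x
  symm' : ∀ x y, cr' x y = cr' y x
  N : V → K
  N' : W → K
  four : ∀ x, cr' (cr x x) (cr x x) = N x • x
  four' : ∀ y, cr (cr' y y) (cr' y y) = N' y • y

variable {K V W : Type*} [Field K] [AddCommGroup V] [Module K V] [AddCommGroup W] [Module K W]

/-- The same with `V` and `W` exchanged. -/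
def Cub.swap (C : Cub K V W) : Cub K W V where
  cr := C.cr'
  cr' := C.cr
  symm := C.symm'
  symm' := C.symm
  N := C.N'
  N' := C.N
  four := C.four'
  four' := C.four

/-- The alternating group of degree seven. -/
abbrev T7 := ↥(alternatingGroup (Fin 7))

/-- A compatible action. -/
structure Act (C : Cub K V W) (ρ : Representation K T7 V) (ρ' : Representation K T7 W) : Prop where
  cr : ∀ g x y, C.cr (ρ g x) (ρ g y) = ρ' g (C.cr x y)
  cr' : ∀ g x y, C.cr' (ρ' g x) (ρ' g y) = ρ g (C.cr' x y)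

theorem Act.swap {C : Cub K V W} {ρ : Representation K T7 V} {ρ' : Representation K T7 W} (h : Act C ρ ρ') :
    Act C.swap ρ' ρ := ⟨h.cr', h.cr⟩

/-- Seven vectors with sum `0` permuted by `A₇`. -/
structure Seven (ρ : Representation K T7 V) (v : Fin 7 → V) : Prop where
  act : ∀ (g : T7) i, ρ g (v i) = v ((g : Perm (Fin 7)) i)
  sum : ∑ i, v i = 0

/-- A vector fixed by `A₇` is zero. -/
def NoFix (ρ : Representation K T7 V) : Prop := ∀ v, (∀ g, ρ g v = v) → v = 0

theorem ne5 : ∀ a b c d : Fin 7, ∃ e, e ≠ a ∧ e ≠ b ∧ e ≠ c ∧ e ≠ d := by decide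

theorem aux1 : ∀ i : Fin 7, i ≠ i + 1 ∧ i ≠ i + 2 ∧ i + 1 ≠ i + 2 := by decide

theorem pick (l : List (Fin 7)) (h : l.length < 7) : ∃ x, x ∉ l := by
  by_contra hcon
  push Not at hcon
  have h1 : (Finset.univ : Finset (Fin 7)) ⊆ l.toFinset := fun x _ => List.mem_toFinset.2 (hcon x)
  have h2 := Finset.card_le_card h1
  rw [Finset.card_univ, Fintype.card_fin] at h2
  have h3 := l.toFinset_card_le
  omega

theorem aux2 (i j : Fin 7) (_ : i ≠ j) : ∃ k l m, i ≠ k ∧ i ≠ l ∧ i ≠ m ∧ j ≠ k ∧ j ≠ l ∧ j ≠ m ∧ k ≠ l ∧ k ≠ m ∧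
    l ≠ m := by
  obtain ⟨k, hk⟩ := pick [i, j] (by simp)
  obtain ⟨l, hl⟩ := pick [i, j, k] (by simp)
  obtain ⟨m, hm⟩ := pick [i, j, k, l] (by simp)
  simp only [List.mem_cons, List.not_mem_nil, or_false, not_or] at hk hl hm
  exact ⟨k, l, m, Ne.symm hk.1, Ne.symm hl.1, Ne.symm hm.1, Ne.symm hk.2, Ne.symm hl.2.1, Ne.symm hm.2.1,
    Ne.symm hl.2.2, Ne.symm hm.2.2.1, Ne.symm hm.2.2.2⟩

/-! ### Four-cycle relations -/

/-- the relation -/
def Four (b : Fin 7 → Fin 7 → W) : Prop := ∀ i j k l, i ≠ j → i ≠ k → i ≠ l → j ≠ k → j ≠ l → k ≠ l →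
  b i j + b k l = b i l + b k j

/-- `2 c_i` -/
theorem Four.indep {b : Fin 7 → Fin 7 → W} (h : Four b) (hs : ∀ i j, b i j = b j i) {i j k j' k' : Fin 7}
    (hij : i ≠ j) (hik : i ≠ k) (hjk : j ≠ k) (hij' : i ≠ j') (hik' : i ≠ k') (hjk' : j' ≠ k') :
    b i j + b i k - b j k = b i j' + b i k' - b j' k' := by
  -- change of the third index
  have h1 : ∀ {j k l : Fin 7}, i ≠ j → i ≠ k → i ≠ l → j ≠ k → j ≠ l →
      b i j + b i k - b j k = b i j + b i l - b j l := by
    intro j k l hij hik hil hjk hjl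
    by_cases hkl : k = l
    · rw [hkl]
    · have h2 := h i k j l hik hij hil (Ne.symm hjk) hkl hjl
      rw [sub_eq_sub_iff_add_eq_add]
      calc b i j + b i k + b j l = b i j + (b i k + b j l) := by abel
        _ = b i j + (b i l + b j k) := by rw [h2]
        _ = b i j + b i l + b j k := by abel
  -- symmetry
  have h3 : ∀ j k : Fin 7, b i j + b i k - b j k = b i k + b i j - b k j := fun j k => by
    rw [hs k j]; abel
  obtain ⟨l, hl1, hl2, hl3, -⟩ := ne5 i j j' j'
  calc b i j + b i k - b j k = b i j + b i l - b j l := h1 hij hik (Ne.symm hl1) hjk (Ne.symm hl2)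
    _ = b i l + b i j - b l j := h3 _ _
    _ = b i l + b i j' - b l j' := h1 (Ne.symm hl1) hij hij' hl2 hl3
    _ = b i j' + b i l - b j' l := h3 _ _
    _ = b i j' + b i k' - b j' k' := h1 hij' (Ne.symm hl1) hik' (Ne.symm hl3) hjk'

/-- `c_i` -/
noncomputable def cof (K : Type*) [Field K] {W : Type*} [AddCommGroup W] [Module K W] (b : Fin 7 → Fin 7 → W)
    (i : Fin 7) : W := (2 : K)⁻¹ • (b i (i + 1) + b i (i + 2) - b (i + 1) (i + 2))

theorem cof_eq {b : Fin 7 → Fin 7 → W} (h : Four b) (hs : ∀ i j, b i j = b j i) {i j k : Fin 7}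
    (hij : i ≠ j) (hik : i ≠ k) (hjk : j ≠ k) : cof K b i = (2 : K)⁻¹ • (b i j + b i k - b j k) := by
  obtain ⟨a1, a2, a3⟩ := aux1 i
  rw [cof, h.indep hs a1 a2 a3 hij hik hjk]

theorem eq_cof_add (h2 : (2 : K) ≠ 0) {b : Fin 7 → Fin 7 → W} (h : Four b) (hs : ∀ i j, b i j = b j i)
    {i j : Fin 7} (hij : i ≠ j) : b i j = cof K b i + cof K b j := by
  obtain ⟨k, hk1, hk2, -, -⟩ := ne5 i j j j
  rw [cof_eq (K := K) h hs hij (Ne.symm hk1) (Ne.symm hk2),
    cof_eq (K := K) h hs (Ne.symm hij) (Ne.symm hk2) (Ne.symm hk1), ← smul_add, hs j i]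
  have : b i j + b i k - b j k + (b i j + b j k - b i k) = (2 : K) • b i j := by
    rw [two_smul]; abel
  rw [this, smul_smul, inv_mul_cancel₀ h2, one_smul]

/-! ### Crosses of seven vectors -/

variable {C : Cub K V W} {ρ : Representation K T7 V} {ρ' : Representation K T7 W}

theorem Seven.of_noFix (hρ : NoFix ρ) {v : Fin 7 → V} (h : ∀ (g : T7) i, ρ g (v i) = v ((g : Perm (Fin 7)) i)) :
    Seven ρ v := by
  refine ⟨h, hρ _ fun g => ?_⟩
  rw [map_sum]
  simp only [h]
  exact Equiv.sum_comp (g : Perm (Fin 7)) v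

/-- the cross of differences vanishes -/
def Dis (C : Cub K V W) (v : Fin 7 → V) : Prop := ∀ i j k l, i ≠ j → i ≠ k → i ≠ l → j ≠ k → j ≠ l → k ≠ l →
  C.cr (v i - v k) (v j - v l) = 0

theorem Dis.four {v : Fin 7 → V} (h : Dis C v) : Four fun i j => C.cr (v i) (v j) := by
  intro i j k l hij hik hil hjk hjl hkl
  have h1 := h i j k l hij hik hil hjk hjl hkl
  simp only [map_sub, LinearMap.sub_apply] at h1
  have h2 : C.cr (v i) (v j) + C.cr (v k) (v l) - (C.cr (v i) (v l) + C.cr (v k) (v j)) = 0 := by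
    rw [← h1]; abel
  exact sub_eq_zero.1 h2

/-- **(B)** the crosses of seven vectors. -/
theorem Dis.exists_seven (h2 : (2 : K) ≠ 0) (hA : Act C ρ ρ') (hρ' : NoFix ρ') {v : Fin 7 → V} (hv : Seven ρ v)
    (h : Dis C v) : ∃ c : Fin 7 → W, Seven ρ' c ∧ (∀ i j, i ≠ j → C.cr (v i) (v j) = c i + c j) ∧
      ∀ i, C.cr (v i) (v i) = (-5 : K) • c i := by
  set b : Fin 7 → Fin 7 → W := fun i j => C.cr (v i) (v j) with hb
  have hs : ∀ i j, b i j = b j i := fun i j => C.symm _ _
  have hF : Four b := h.four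
  have hact : ∀ (g : T7) i j, ρ' g (b i j) = b ((g : Perm (Fin 7)) i) ((g : Perm (Fin 7)) j) := by
    intro g i j
    rw [hb]
    simp only
    rw [← hA.cr, hv.act, hv.act]
  have h7 : Seven ρ' (cof K b) := by
    refine Seven.of_noFix hρ' fun g i => ?_
    rw [cof, map_smul, map_sub, map_add, hact, hact, hact, cof_eq (K := K) hF hs]
    · exact (g : Perm (Fin 7)).injective.ne (by revert i; decide)
    · exact (g : Perm (Fin 7)).injective.ne (by revert i; decide)
    · exact (g : Perm (Fin 7)).injective.ne (by revert i; decide)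
  refine ⟨cof K b, h7, fun i j hij => eq_cof_add h2 hF hs hij, fun i => ?_⟩
  -- the diagonal
  have h3 : ∑ j, b i j = 0 := by
    rw [hb]
    simp only
    rw [← map_sum, hv.sum, map_zero]
  have h4 : ∑ j, b i j = b i i + ∑ j ∈ Finset.univ.erase i, b i j :=
    (Finset.add_sum_erase _ _ (Finset.mem_univ i)).symm
  have h5 : ∑ j ∈ Finset.univ.erase i, b i j = ∑ j ∈ Finset.univ.erase i, (cof K b i + cof K b j) :=
    Finset.sum_congr rfl fun j hj => eq_cof_add h2 hF hs (Ne.symm (Finset.ne_of_mem_erase hj))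
  have h6 : ∑ j ∈ Finset.univ.erase i, cof K b j = - cof K b i := by
    have := Finset.add_sum_erase Finset.univ (cof K b) (Finset.mem_univ i)
    rw [h7.sum] at this
    exact eq_neg_of_add_eq_zero_right this
  rw [h4, h5, Finset.sum_add_distrib, h6, Finset.sum_const, Finset.card_erase_of_mem (Finset.mem_univ i),
    Finset.card_univ, Fintype.card_fin] at h3
  have h8 : C.cr (v i) (v i) = b i i := rfl
  rw [h8]
  have h9 : (7 - 1) • cof K b i + - cof K b i = (5 : K) • cof K b i := by
    rw [show (5 : K) = ((5 : ℕ) : K) by norm_num, Nat.cast_smul_eq_nsmul]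
    rw [show (7 - 1 : ℕ) = 5 + 1 by norm_num, add_smul, one_smul]
    abel
  rw [h9] at h3
  rw [neg_smul]
  exact eq_neg_of_add_eq_zero_left h3

/-- Seven vectors, not all zero, with all crosses zero. -/
def TS (C : Cub K V W) (ρ : Representation K T7 V) : Prop :=
  ∃ v : Fin 7 → V, Seven ρ v ∧ v 0 ≠ 0 ∧ ∀ i j, C.cr (v i) (v j) = 0

/-- the involution `(i k)(j l)` -/
def dt (i j k l : Fin 7) (h1 : i ≠ j) (h2 : k ≠ l) : T7 :=
  ⟨Equiv.swap i j * Equiv.swap k l, by
    rw [mem_alternatingGroup, map_mul, sign_swap h1, sign_swap h2]; rfl⟩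

theorem Seven.ne_zero {v : Fin 7 → V} (hv : Seven ρ v) {i : Fin 7} (hi : v i ≠ 0) :
    v 0 ≠ 0 := by
  intro h0
  by_cases h1 : i = 0
  · rw [h1] at hi; exact hi h0
  · obtain ⟨k, hk1, hk2, hk3, hk4⟩ := ne5 i 0 0 0
    obtain ⟨l, hl1, hl2, hl3, hl4⟩ := ne5 i 0 k 0
    have h3 := hv.act (dt 0 i k l (Ne.symm h1) (Ne.symm hl3)) 0
    rw [h0, map_zero] at h3
    apply hi
    rw [h3]
    congr 1
    change i = (Equiv.swap 0 i * Equiv.swap k l) 0
    rw [Perm.mul_apply, swap_apply_of_ne_of_ne (Ne.symm hk2) (Ne.symm hl2), swap_apply_left]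

/-- **(B)** conclusion. -/
theorem ts_of_dis (h2 : (2 : K) ≠ 0) (h7 : (7 : K) ≠ 0) (hA : Act C ρ ρ') (hρ : NoFix ρ) (hρ' : NoFix ρ')
    (hd : ∀ v, Seven ρ v → Dis C v) (hd' : ∀ v, Seven ρ' v → Dis C.swap v) {v : Fin 7 → V} (hv : Seven ρ v)
    (h0 : v 0 ≠ 0) : TS C ρ ∨ TS C.swap ρ' := by
  obtain ⟨c, hc, hc1, hc2⟩ := (hd v hv).exists_seven h2 hA hρ' hv
  obtain ⟨w, hw, hw1, hw2⟩ := (hd' c hc).exists_seven h2 hA.swap hρ hc
  by_cases hc0 : c 0 = 0
  · left
    refine ⟨v, hv, h0, ?_⟩
    have hall : ∀ i, c i = 0 := fun i => by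
      by_contra hi
      exact hc.ne_zero hi hc0
    intro i j
    by_cases hij : i = j
    · rw [hij, hc2, hall, smul_zero]
    · rw [hc1 i j hij, hall, hall, add_zero]
  · right
    refine ⟨c, hc, hc0, ?_⟩
    have h49 : (49 : K) ≠ 0 := by
      rw [show (49 : K) = 7 * 7 by norm_num]
      exact mul_ne_zero h7 h7
    -- four of the vectors `w i` have sum zero
    have key : ∀ i j k l, i ≠ j → i ≠ k → i ≠ l → j ≠ k → j ≠ l → k ≠ l → w i + w j + w k + w l = 0 := by
      intro i j k l hij hik hil hjk hjl hkl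
      set x := v i + v j - v k - v l with hx
      have e1 : C.cr x x = (-7 : K) • (c i + c j + c k + c l) := by
        rw [hx]
        simp only [map_add, map_sub, LinearMap.add_apply, LinearMap.sub_apply, hc2, hc1 i j hij, hc1 i k hik,
          hc1 i l hil, hc1 j k hjk, hc1 j l hjl, hc1 k l hkl, hc1 j i hij.symm, hc1 k i hik.symm, hc1 l i hil.symm,
          hc1 k j hjk.symm, hc1 l j hjl.symm, hc1 l k hkl.symm]
        module
      have e2 : C.cr' (c i + c j + c k + c l) (c i + c j + c k + c l) = w i + w j + w k + w l := by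
        change C.swap.cr _ _ = _
        simp only [map_add, LinearMap.add_apply, hw2, hw1 i j hij, hw1 i k hik,
          hw1 i l hil, hw1 j k hjk, hw1 j l hjl, hw1 k l hkl, hw1 j i hij.symm, hw1 k i hik.symm, hw1 l i hil.symm,
          hw1 k j hjk.symm, hw1 l j hjl.symm, hw1 l k hkl.symm]
        module
      have e3 : C.cr' (C.cr x x) (C.cr x x) = (49 : K) • (w i + w j + w k + w l) := by
        rw [e1]
        simp only [map_smul, LinearMap.smul_apply]
        rw [e2, smul_smul]
        norm_num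
      set g := dt i k j l hik hjl with hg
      have e4 : ρ g x = -x := by
        have a1 : (g : Perm (Fin 7)) i = k := by
          change (Equiv.swap i k * Equiv.swap j l) i = k
          rw [Perm.mul_apply, swap_apply_of_ne_of_ne hij hil, swap_apply_left]
        have a2 : (g : Perm (Fin 7)) k = i := by
          change (Equiv.swap i k * Equiv.swap j l) k = i
          rw [Perm.mul_apply, swap_apply_of_ne_of_ne hjk.symm hkl, swap_apply_right]
        have a3 : (g : Perm (Fin 7)) j = l := by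
          change (Equiv.swap i k * Equiv.swap j l) j = l
          rw [Perm.mul_apply, swap_apply_left, swap_apply_of_ne_of_ne hil.symm hkl.symm]
        have a4 : (g : Perm (Fin 7)) l = j := by
          change (Equiv.swap i k * Equiv.swap j l) l = j
          rw [Perm.mul_apply, swap_apply_right, swap_apply_of_ne_of_ne hij.symm hjk]
        rw [hx, map_sub, map_sub, map_add, hv.act, hv.act, hv.act, hv.act, a1, a2, a3, a4]
        abel
      have e5 : ρ g (C.cr' (C.cr x x) (C.cr x x)) = C.cr' (C.cr x x) (C.cr x x) := by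
        rw [← hA.cr', ← hA.cr, e4]
        simp only [map_neg, LinearMap.neg_apply, neg_neg]
      rw [C.four, map_smul, e4, smul_neg] at e5
      have e6 : C.N x • x = 0 := by
        have e7 : (2 : K) • (C.N x • x) = 0 := by
          rw [two_smul]
          nth_rewrite 1 [← e5]
          abel
        exact (smul_eq_zero.1 e7).resolve_left h2
      rw [C.four, e6] at e3
      exact (smul_eq_zero.1 e3.symm).resolve_left h49
    have heq : ∀ i, w i = w 0 := by
      intro i
      by_cases hi : i = 0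
      · rw [hi]
      · obtain ⟨k, l, m, a1, a2, a3, a4, a5, a6, a7, a8, a9⟩ := aux2 i 0 hi
        have b1 := key i k l m a1 a2 a3 a7 a8 a9
        have b2 := key 0 k l m a4 a5 a6 a7 a8 a9
        have b3 : w i - w 0 = (w i + w k + w l + w m) - (w 0 + w k + w l + w m) := by abel
        rw [b1, b2, sub_zero] at b3
        exact sub_eq_zero.1 b3
    have hw0 : w 0 = 0 := by
      have := hw.sum
      rw [Finset.sum_congr rfl fun i _ => heq i, Finset.sum_const, Finset.card_univ, Fintype.card_fin,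
        ← Nat.cast_smul_eq_nsmul K] at this
      exact (smul_eq_zero.1 this).resolve_left (by exact_mod_cast h7)
    intro i j
    by_cases hij : i = j
    · rw [hij, hw2, heq, hw0, smul_zero]
    · rw [hw1 i j hij, heq i, heq j, hw0, add_zero]

/-! ### The span -/

/-- the span of the seven vectors is stable -/
theorem Seven.span_stable {v : Fin 7 → V} (hv : Seven ρ v) (g : T7) {x : V} (hx : x ∈ Submodule.span K (Set.range v)) :
    ρ g x ∈ Submodule.span K (Set.range v) := by
  induction hx using Submodule.span_induction with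
  | mem x hx =>
    obtain ⟨i, rfl⟩ := hx
    rw [hv.act]
    exact Submodule.subset_span ⟨_, rfl⟩
  | zero => rw [map_zero]; exact Submodule.zero_mem _
  | add x y _ _ hx hy => rw [map_add]; exact Submodule.add_mem _ hx hy
  | smul a x _ hx => rw [map_smul]; exact Submodule.smul_mem _ _ hx

theorem cross_span {v : Fin 7 → V} (h : ∀ i j, C.cr (v i) (v j) = 0) {x y : V}
    (hx : x ∈ Submodule.span K (Set.range v)) (hy : y ∈ Submodule.span K (Set.range v)) : C.cr x y = 0 := by
  induction hx using Submodule.span_induction with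
  | mem x hx =>
    obtain ⟨i, rfl⟩ := hx
    induction hy using Submodule.span_induction with
    | mem y hy => obtain ⟨j, rfl⟩ := hy; exact h i j
    | zero => rw [map_zero]
    | add x y _ _ hx hy => rw [map_add, hx, hy, add_zero]
    | smul a x _ hx => rw [map_smul, hx, smul_zero]
  | zero => rw [map_zero, LinearMap.zero_apply]
  | add x y _ _ hx hy => rw [map_add, LinearMap.add_apply, hx, hy, add_zero]
  | smul a x _ hx => rw [map_smul, LinearMap.smul_apply, hx, smul_zero]

theorem dt_act {v : Fin 7 → V} (hv : Seven ρ v) {i j k l m : Fin 7} (h1 : i ≠ j) (h2 : k ≠ l) :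
    ρ (dt i j k l h1 h2) (v m) = v (Equiv.swap i j (Equiv.swap k l m)) := hv.act _ _

theorem Seven.eq_zero_of_eq (h7 : (7 : K) ≠ 0) {v : Fin 7 → V} (hv : Seven ρ v) {a b : Fin 7} (hab : a ≠ b)
    (h : v a = v b) : v 0 = 0 := by
  have h1 : ∀ c, v c = v a := by
    intro c
    by_cases hca : c = a
    · rw [hca]
    · by_cases hcb : c = b
      · rw [hcb, h]
      · obtain ⟨k, hk⟩ := pick [a, b, c] (by simp)
        obtain ⟨l, hl⟩ := pick [a, b, c, k] (by simp)
        simp only [List.mem_cons, List.not_mem_nil, or_false, not_or] at hk hl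
        have h2 := congrArg (ρ (dt b c k l (Ne.symm hcb) (Ne.symm hl.2.2.2))) h
        rw [dt_act hv, dt_act hv, swap_apply_of_ne_of_ne (Ne.symm hk.1) (Ne.symm hl.1),
          swap_apply_of_ne_of_ne hab (Ne.symm hca), swap_apply_of_ne_of_ne (Ne.symm hk.2.1) (Ne.symm hl.2.1),
          swap_apply_left] at h2
        exact h2.symm
  have h3 := hv.sum
  rw [Finset.sum_congr rfl fun i _ => h1 i, Finset.sum_const, Finset.card_univ, Fintype.card_fin,
    ← Nat.cast_smul_eq_nsmul K] at h3
  rw [h1 0]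
  exact (smul_eq_zero.1 h3).resolve_left (by exact_mod_cast h7)

/-- a relation between the seven vectors has constant coefficients -/
theorem Seven.coeff_eq (h7 : (7 : K) ≠ 0) {v : Fin 7 → V} (hv : Seven ρ v) (h0 : v 0 ≠ 0) {x : Fin 7 → K}
    (hx : ∑ i, x i • v i = 0) (i j : Fin 7) : x i = x j := by
  by_contra hne
  have hij : i ≠ j := fun h => hne (by rw [h])
  obtain ⟨k, hk⟩ := pick [i, j] (by simp)
  obtain ⟨l, hl⟩ := pick [i, j, k] (by simp)
  obtain ⟨m, hm⟩ := pick [i, j, k, l] (by simp)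
  obtain ⟨n, hn⟩ := pick [i, j, k, l, m] (by simp)
  obtain ⟨o, ho⟩ := pick [i, j, k, l, m, n] (by simp)
  simp only [List.mem_cons, List.not_mem_nil, or_false, not_or] at hk hl hm hn ho
  set g := dt i j k l hij (Ne.symm hl.2.2) with hg
  have gi : (g : Perm (Fin 7)) i = j := by
    change Equiv.swap i j (Equiv.swap k l i) = j
    rw [swap_apply_of_ne_of_ne (Ne.symm hk.1) (Ne.symm hl.1), swap_apply_left]
  have gj : (g : Perm (Fin 7)) j = i := by
    change Equiv.swap i j (Equiv.swap k l j) = i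
    rw [swap_apply_of_ne_of_ne (Ne.symm hk.2) (Ne.symm hl.2.1), swap_apply_right]
  have gk : (g : Perm (Fin 7)) k = l := by
    change Equiv.swap i j (Equiv.swap k l k) = l
    rw [swap_apply_left, swap_apply_of_ne_of_ne hl.1 hl.2.1]
  have gl : (g : Perm (Fin 7)) l = k := by
    change Equiv.swap i j (Equiv.swap k l l) = k
    rw [swap_apply_right, swap_apply_of_ne_of_ne hk.1 hk.2]
  have go : ∀ r, r ≠ i → r ≠ j → r ≠ k → r ≠ l → (g : Perm (Fin 7)) r = r := by
    intro r h1 h2 h3 h4
    change Equiv.swap i j (Equiv.swap k l r) = r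
    rw [swap_apply_of_ne_of_ne h3 h4, swap_apply_of_ne_of_ne h1 h2]
  -- the difference of the relation and its image
  have h1 : (x i - x j) • (v i - v j) + (x k - x l) • (v k - v l) = 0 := by
    have h2 : ∑ r, x r • (v r - v ((g : Perm (Fin 7)) r)) = 0 := by
      have h3 := congrArg (ρ g) hx
      rw [map_zero, map_sum] at h3
      simp only [map_smul, hv.act] at h3
      simp only [smul_sub, Finset.sum_sub_distrib]
      rw [hx, h3, sub_zero]
    have h3 : ∑ r, x r • (v r - v ((g : Perm (Fin 7)) r)) =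
        ∑ r ∈ ({i, j, k, l} : Finset (Fin 7)), x r • (v r - v ((g : Perm (Fin 7)) r)) := by
      symm
      apply Finset.sum_subset (Finset.subset_univ _)
      intro r _ hr
      simp only [Finset.mem_insert, Finset.mem_singleton, not_or] at hr
      rw [go r hr.1 hr.2.1 hr.2.2.1 hr.2.2.2, sub_self, smul_zero]
    rw [h3, Finset.sum_insert (by simp [hij, Ne.symm hk.1, Ne.symm hl.1]),
      Finset.sum_insert (by simp [Ne.symm hk.2, Ne.symm hl.2.1]), Finset.sum_insert (by simp [Ne.symm hl.2.2]),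
      Finset.sum_singleton, gi, gj, gk, gl] at h2
    rw [← h2]
    module
  have h2 := congrArg (ρ (dt k m n o (Ne.symm hm.2.2.1) (Ne.symm ho.2.2.2.2.2))) h1
  simp only [map_add, map_smul, map_sub, map_zero] at h2
  rw [dt_act hv, dt_act hv, dt_act hv, dt_act hv,
    swap_apply_of_ne_of_ne (Ne.symm hn.1) (Ne.symm ho.1), swap_apply_of_ne_of_ne (Ne.symm hk.1) (Ne.symm hm.1),
    swap_apply_of_ne_of_ne (Ne.symm hn.2.1) (Ne.symm ho.2.1), swap_apply_of_ne_of_ne (Ne.symm hk.2) (Ne.symm hm.2.1),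
    swap_apply_of_ne_of_ne (Ne.symm hn.2.2.1) (Ne.symm ho.2.2.1), swap_apply_left,
    swap_apply_of_ne_of_ne (Ne.symm hn.2.2.2.1) (Ne.symm ho.2.2.2.1),
    swap_apply_of_ne_of_ne hl.2.2 (Ne.symm hm.2.2.2)] at h2
  have h3 : (x k - x l) • (v k - v m) = 0 := by
    have : (x k - x l) • (v k - v m) = ((x i - x j) • (v i - v j) + (x k - x l) • (v k - v l)) -
      ((x i - x j) • (v i - v j) + (x k - x l) • (v m - v l)) := by module
    rw [this, h1, h2, sub_zero]
  rcases smul_eq_zero.1 h3 with h4 | h4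
  · rw [h4, zero_smul, add_zero] at h1
    rcases smul_eq_zero.1 h1 with h5 | h5
    · exact hne (sub_eq_zero.1 h5)
    · exact h0 (hv.eq_zero_of_eq h7 hij (sub_eq_zero.1 h5))
  · exact h0 (hv.eq_zero_of_eq h7 (Ne.symm hm.2.2.1) (sub_eq_zero.1 h4))

/-- six of the vectors are linearly independent -/
theorem Seven.linearIndependent (h7 : (7 : K) ≠ 0) {v : Fin 7 → V} (hv : Seven ρ v) (h0 : v 0 ≠ 0) :
    LinearIndependent K fun i : Fin 6 => v i.castSucc := by
  rw [Fintype.linearIndependent_iff]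
  intro x hx i
  let y : Fin 7 → K := Fin.snoc x 0
  have h1 : ∑ i, y i • v i = 0 := by
    rw [Fin.sum_univ_castSucc]
    simp only [y, Fin.snoc_castSucc, Fin.snoc_last, zero_smul, add_zero]
    exact hx
  have h2 := hv.coeff_eq h7 h0 h1 i.castSucc (Fin.last 6)
  simp only [y, Fin.snoc_castSucc, Fin.snoc_last] at h2
  exact h2

theorem Seven.finrank (h7 : (7 : K) ≠ 0) {v : Fin 7 → V} (hv : Seven ρ v) (h0 : v 0 ≠ 0) :
    Module.finrank K ↥(Submodule.span K (Set.range v)) = 6 := by
  have h1 : Submodule.span K (Set.range v) = Submodule.span K (Set.range fun i : Fin 6 => v i.castSucc) := by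
    apply le_antisymm
    · rw [Submodule.span_le]
      rintro _ ⟨i, rfl⟩
      refine Fin.lastCases ?_ (fun j => Submodule.subset_span ⟨j, rfl⟩) i
      have h2 := hv.sum
      rw [Fin.sum_univ_castSucc] at h2
      rw [eq_neg_of_add_eq_zero_right h2]
      exact Submodule.neg_mem _ (Submodule.sum_mem _ fun j _ => Submodule.subset_span ⟨j, rfl⟩)
    · apply Submodule.span_mono
      rintro _ ⟨i, rfl⟩
      exact ⟨_, rfl⟩
  rw [h1, finrank_span_eq_card (hv.linearIndependent h7 h0), Fintype.card_fin]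

end Cfsg.Agent.H931.E6
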