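import Cfsg.Agent.H931.E6.Cross
import Cfsg.Agent.H952.F4.KillBase
import Cfsg.Agent.H952.F4.Eig

/-!
# Conjugation in `A₇`; the involutions have not `ev = 11` (helper931)
-/

set_option autoImplicit false

namespace Cfsg.Agent.H931.E6

open Equiv Equiv.Perm Module
open Cfsg.Agent.H952.F4 (ev es)

/-! ### Conjugation -/

theorem conj_of_type {r : T7} {κ : Perm (Fin 7)} (hκ : sign κ = -1)
    (hc : κ * (r : Perm (Fin 7)) * κ⁻¹ = r) {g : T7}
    (hg : (g : Perm (Fin 7)).cycleType = (r : Perm (Fin 7)).cycleType) : ∃ k : T7, k * r * k⁻¹ = g := by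
  obtain ⟨τ, hτ⟩ := isConj_iff.1 (isConj_iff_cycleType_eq.2 hg.symm)
  by_cases hs : sign τ = 1
  · exact ⟨⟨τ, mem_alternatingGroup.2 hs⟩, Subtype.ext hτ⟩
  · have hs' : sign (τ * κ⁻¹) = 1 := by
      rw [map_mul, map_inv, hκ, (Int.units_eq_one_or _).resolve_left hs]
      decide
    refine ⟨⟨τ * κ⁻¹, mem_alternatingGroup.2 hs'⟩, Subtype.ext ?_⟩
    change (τ * κ⁻¹) * (r : Perm (Fin 7)) * (τ * κ⁻¹)⁻¹ = g
    rw [← hτ]
    conv_lhs => rw [← hc]
    group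

/-- the powers conjugate to the element -/
theorem pow_conj {r k0 : T7} {m : ℤ} (hk : k0 * r * k0⁻¹ = r ^ m) {g : T7}
    (hg : (g : Perm (Fin 7)).cycleType = (r : Perm (Fin 7)).cycleType) : ∃ k : T7, k * g * k⁻¹ = g ^ m := by
  obtain ⟨τ, hτ⟩ := isConj_iff.1 (isConj_iff_cycleType_eq.2 hg.symm)
  have hs : sign (τ * (k0 : Perm (Fin 7)) * τ⁻¹) = 1 := by
    rw [map_mul, map_mul, map_inv, mem_alternatingGroup.1 k0.2, mul_one, mul_inv_cancel]
  refine ⟨⟨_, mem_alternatingGroup.2 hs⟩, Subtype.ext ?_⟩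
  change (τ * (k0 : Perm (Fin 7)) * τ⁻¹) * (g : Perm (Fin 7)) * (τ * (k0 : Perm (Fin 7)) * τ⁻¹)⁻¹ =
    (g : Perm (Fin 7)) ^ m
  have h1 : (k0 : Perm (Fin 7)) * r * (k0 : Perm (Fin 7))⁻¹ = (r : Perm (Fin 7)) ^ m := congrArg Subtype.val hk
  rw [← hτ, conj_zpow, ← h1]
  group

/-- the 5-cycle -/
def r5 : T7 := ⟨c[2, 3, 4, 5, 6], mem_alternatingGroup.2 (by decide +kernel)⟩
/-- an element of order 4 -/
def r4 : T7 := ⟨c[0, 1, 2, 3] * c[4, 5], mem_alternatingGroup.2 (by decide +kernel)⟩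
/-- an element of order 3 -/
def r33 : T7 := ⟨c[0, 1, 2] * c[3, 4, 5], mem_alternatingGroup.2 (by decide +kernel)⟩
/-- the 7-cycle -/
def r7 : T7 := ⟨c[0, 1, 2, 3, 4, 5, 6], mem_alternatingGroup.2 (by decide +kernel)⟩
/-- an involution -/
def r2 : T7 := ⟨c[0, 1] * c[2, 3], mem_alternatingGroup.2 (by decide +kernel)⟩

theorem r5_type : (r5 : Perm (Fin 7)).cycleType = {5} := by decide +kernel
theorem r4_type : (r4 : Perm (Fin 7)).cycleType = {4, 2} := by decide +kernel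
theorem r7_type : (r7 : Perm (Fin 7)).cycleType = {7} := by decide +kernel
theorem r2_type : (r2 : Perm (Fin 7)).cycleType = {2, 2} := by decide +kernel

theorem five_conj {g : T7} (hg : (g : Perm (Fin 7)).cycleType = {5}) : ∃ k : T7, k * g * k⁻¹ = g ^ 2 := by
  have h := pow_conj (r := r5) (k0 := ⟨c[0, 1] * c[3, 4, 6, 5], mem_alternatingGroup.2 (by decide +kernel)⟩) (m := 2)
    (by decide +kernel) (g := g) (by rw [hg, r5_type])
  exact_mod_cast h

theorem seven_conj {g : T7} (hg : (g : Perm (Fin 7)).cycleType = {7}) : ∃ k : T7, k * g * k⁻¹ = g ^ 2 := by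
  have h := pow_conj (r := r7) (k0 := ⟨c[1, 2, 4] * c[3, 6, 5], mem_alternatingGroup.2 (by decide +kernel)⟩) (m := 2)
    (by decide +kernel) (g := g) (by rw [hg, r7_type])
  exact_mod_cast h

theorem four_conj {g : T7} (hg : (g : Perm (Fin 7)).cycleType = {4, 2}) : ∃ k : T7, k * g * k⁻¹ = g⁻¹ := by
  have h := pow_conj (r := r4) (k0 := ⟨c[1, 3] * c[4, 5], mem_alternatingGroup.2 (by decide +kernel)⟩) (m := -1)
    (by decide +kernel) (g := g) (by rw [hg, r4_type])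
  rwa [zpow_neg_one] at h

theorem two_conj {g g' : T7} (hg : (g : Perm (Fin 7)).cycleType = {2, 2})
    (hg' : (g' : Perm (Fin 7)).cycleType = {2, 2}) : ∃ k : T7, k * g * k⁻¹ = g' := by
  obtain ⟨k, hk⟩ := conj_of_type (r := r2) (κ := swap 4 5) (by decide +kernel) (by decide +kernel) (g := g)
    (by rw [hg, r2_type])
  obtain ⟨l, hl⟩ := conj_of_type (r := r2) (κ := swap 4 5) (by decide +kernel) (by decide +kernel) (g := g')
    (by rw [hg', r2_type])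
  exact ⟨l * k⁻¹, by rw [← hk, ← hl]; group⟩

/-- the elements of order 7 are conjugate to their inverses up to a power `2` ... the square of an element of type
`{4, 2}` -/
theorem sq_type {g : T7} (hg : (g : Perm (Fin 7)).cycleType = {4, 2}) :
    ((g * g : T7) : Perm (Fin 7)).cycleType = {2, 2} := by
  obtain ⟨τ, hτ⟩ := isConj_iff.1 (isConj_iff_cycleType_eq.2 (show (r4 : Perm (Fin 7)).cycleType =
    (g : Perm (Fin 7)).cycleType by rw [hg, r4_type]))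
  have h1 : ((g * g : T7) : Perm (Fin 7)) = τ * ((r4 * r4 : T7) : Perm (Fin 7)) * τ⁻¹ := by
    change (g : Perm (Fin 7)) * g = τ * ((r4 : Perm (Fin 7)) * r4) * τ⁻¹
    rw [← hτ]
    group
  rw [h1, cycleType_conj]
  decide +kernel

section
variable {K V : Type*} [Field K] [AddCommGroup V] [Module K V]

theorem trace_conj (ρ : Representation K T7 V) (k g : T7) :
    LinearMap.trace K V (ρ (k * g * k⁻¹)) = LinearMap.trace K V (ρ g) := by
  rw [map_mul, LinearMap.trace_mul_comm, ← map_mul, ← mul_assoc, inv_mul_cancel, one_mul]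

theorem ev_conj (ρ : Representation K T7 V) (g x : T7) (μ : K) : ev (ρ (g * x * g⁻¹)) μ = ev (ρ x) μ := by
  unfold Cfsg.Agent.H952.F4.ev
  let e : V ≃ₗ[K] V := LinearEquiv.ofLinearMap (ρ g) (ρ g⁻¹)
    (by rw [← Module.End.mul_eq_comp, ← map_mul, mul_inv_cancel, map_one]; rfl)
    (by rw [← Module.End.mul_eq_comp, ← map_mul, inv_mul_cancel, map_one]; rfl)
  have h1 : Module.End.eigenspace (ρ (g * x * g⁻¹)) μ = (Module.End.eigenspace (ρ x) μ).map (e : V →ₗ[K] V) := by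
    ext v
    rw [Submodule.mem_map, Module.End.mem_eigenspace_iff]
    constructor
    · intro h
      refine ⟨ρ g⁻¹ v, ?_, ?_⟩
      · rw [Module.End.mem_eigenspace_iff]
        have h2 : ρ x (ρ g⁻¹ v) = ρ g⁻¹ (ρ (g * x * g⁻¹) v) := by
          rw [← Module.End.mul_apply, ← Module.End.mul_apply, ← map_mul, ← map_mul]
          congr 2
          group
        rw [h2, h, map_smul]
      · show ρ g (ρ g⁻¹ v) = v
        rw [← Module.End.mul_apply, ← map_mul, mul_inv_cancel, map_one]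
        rfl
    · rintro ⟨w, hw, rfl⟩
      rw [Module.End.mem_eigenspace_iff] at hw
      show ρ (g * x * g⁻¹) (ρ g w) = μ • ρ g w
      have h2 : ρ (g * x * g⁻¹) (ρ g w) = ρ g (ρ x w) := by
        rw [← Module.End.mul_apply, ← Module.End.mul_apply, ← map_mul, ← map_mul]
        congr 2
        group
      rw [h2, hw, map_smul]
  rw [h1]
  exact LinearEquiv.finrank_map_eq e _

/-- the elements of order 4 for the dihedral group -/
def a2 : T7 := ⟨c[0, 2] * c[4, 5], mem_alternatingGroup.2 (by decide +kernel)⟩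
/-- first element -/
def e1 : T7 := ⟨c[2, 3, 4, 5, 6], mem_alternatingGroup.2 (by decide +kernel)⟩
/-- second element -/
def e2 : T7 := ⟨c[1, 2, 4] * c[3, 5, 6], mem_alternatingGroup.2 (by decide +kernel)⟩
/-- the normalizing element of the 5-cycle -/
def y5 : T7 := ⟨c[0, 1] * c[3, 4, 6, 5], mem_alternatingGroup.2 (by decide +kernel)⟩

variable [FiniteDimensional K V]

/-- **the involutions do not have `ev = 11`** -/
theorem no_eleven [IsAlgClosed K] (h2 : (2 : K) ≠ 0) (h5 : (5 : K) ≠ 0) (ρ : Representation K T7 V)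
    (h27 : finrank K V = 27)
    (hev2 : ∀ g : T7, (g : Perm (Fin 7)).cycleType = {2, 2} → ev (ρ g) 1 = 11)
    (hev4 : ∀ g : T7, (g : Perm (Fin 7)).cycleType = {4, 2} → ev (ρ g) 1 = 9 ∨ ev (ρ g) 1 = 5)
    (hev5 : ev (ρ r5) 1 = 7) (htr : LinearMap.trace K V (ρ r5) = 2) : False := by
  -- dihedral group of order 10
  have d1 := Cfsg.Agent.H952.F4.Eig.dihedral h2 ρ (z := r5) (s := y5 * y5) (m := 5) (by decide)
    (by exact_mod_cast h5) (by decide +kernel) (by decide +kernel) (by decide +kernel) (μ := 1) (Or.inl rfl)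
  rw [h27, hev5, hev2 (y5 * y5) (by decide +kernel)] at d1
  -- Frobenius group of order 20
  have d2 := Cfsg.Agent.H952.F4.Eig.frob ρ (m := 5) (by norm_num) (by exact_mod_cast h5) (z := r5) (y := y5)
    (a := 2) (k := 4) (by decide +kernel) (by decide +kernel) Cfsg.Agent.H952.F4.Kill.ord5 (by norm_num)
    (by decide +kernel) (μ := 1) (one_pow 4)
  rw [h27, hev5] at d2
  have d3 : finrank K ↥(es (ρ r5) 1 ⊓ es (ρ y5) 1) ≤ finrank K ↥(es (ρ r5) 1 ⊓ es (ρ (y5 * y5)) 1) := by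
    refine Submodule.finrank_mono (inf_le_inf le_rfl fun v hv => ?_)
    rw [Cfsg.Agent.H546.F4Eig.mem_es_one] at hv ⊢
    rw [map_mul, Module.End.mul_apply, hv, hv]
  have d4 := hev4 y5 (by decide +kernel)
  have d5 : ev (ρ r4) 1 = ev (ρ y5) 1 := by
    obtain ⟨k, hk⟩ := conj_of_type (r := r4) (κ := swap 4 5) (by decide +kernel) (by decide +kernel) (g := y5)
      (by decide +kernel)
    rw [← hk, ev_conj]
  have d6 : ev (ρ r4) 1 = 5 := by omega
  -- dihedral group of order 8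
  have q1 := Cfsg.Agent.H952.F4.Eig.four h2 ρ (a := r4 * r4) (b := a2) (by decide +kernel) (by decide +kernel)
    (by decide +kernel)
  rw [h27, hev2 (r4 * r4) (by decide +kernel), hev2 a2 (by decide +kernel),
    hev2 (r4 * r4 * a2) (by decide +kernel)] at q1
  have q2 := Cfsg.Agent.H952.F4.Eig.four h2 ρ (a := r4 * r4) (b := r4 * a2) (by decide +kernel) (by decide +kernel)
    (by decide +kernel)
  rw [h27, hev2 (r4 * r4) (by decide +kernel), hev2 (r4 * a2) (by decide +kernel),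
    hev2 (r4 * r4 * (r4 * a2)) (by decide +kernel)] at q2
  have q3 := Cfsg.Agent.H952.F4.Eig.ev_neg h2 (ρ r4)
  rw [← map_mul, hev2 (r4 * r4) (by decide +kernel), d6] at q3
  have hzz : ∀ v, ρ (r4 * r4) v = ρ r4 (ρ r4 v) := fun v => by rw [map_mul]; rfl
  have hza : ∀ v, ρ (r4 * a2) v = ρ r4 (ρ a2 v) := fun v => by rw [map_mul]; rfl
  have haz : ∀ v, ρ a2 (ρ r4 v) = ρ r4 (ρ (r4 * r4) (ρ a2 v)) := by
    intro v
    rw [← Module.End.mul_apply, ← Module.End.mul_apply, ← Module.End.mul_apply, ← map_mul, ← map_mul, ← map_mul,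
      show a2 * r4 = r4 * (r4 * r4 * a2) by decide +kernel, ← mul_assoc]
  have hazz : ∀ v, ρ a2 (ρ (r4 * r4) v) = ρ (r4 * r4) (ρ a2 v) := by
    intro v
    rw [← Module.End.mul_apply, ← Module.End.mul_apply, ← map_mul, ← map_mul,
      show a2 * (r4 * r4) = r4 * r4 * a2 by decide +kernel]
  have hz4 : ∀ v, ρ (r4 * r4) (ρ (r4 * r4) v) = v := fun v => by
    rw [← Module.End.mul_apply, ← map_mul, show r4 * r4 * (r4 * r4) = 1 by decide +kernel, map_one]; rfl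
  have haa : ∀ v, ρ a2 (ρ a2 v) = v := fun v => by
    rw [← Module.End.mul_apply, ← map_mul, show a2 * a2 = 1 by decide +kernel, map_one]; rfl
  have hzzz : ∀ v, ρ (r4 * r4) (ρ r4 v) = ρ r4 (ρ (r4 * r4) v) := fun v => by
    rw [← Module.End.mul_apply, ← Module.End.mul_apply, ← map_mul, ← map_mul,
      show r4 * r4 * r4 = r4 * (r4 * r4) by decide +kernel]
  -- the four characters of `D₈ / Z`
  have s1 := Cfsg.Agent.H546.F4Eig.split_sq h2 (one_ne_zero (α := K)) (ρ r4) (es (ρ (r4 * r4)) 1 ⊓ es (ρ a2) 1)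
    (fun v hv => by
      have hv1 := Cfsg.Agent.H546.F4Eig.mem_es_one.1 hv.1
      have hv2 := Cfsg.Agent.H546.F4Eig.mem_es_one.1 hv.2
      exact ⟨Cfsg.Agent.H546.F4Eig.mem_es_one.2 (by rw [hzzz, hv1]),
        Cfsg.Agent.H546.F4Eig.mem_es_one.2 (by rw [haz, hv2, hv1])⟩)
    (fun v hv => by rw [← hzz, Cfsg.Agent.H546.F4Eig.mem_es_one.1 hv.1, one_mul, one_smul])
  have s2 := Cfsg.Agent.H546.F4Eig.split_sq h2 (one_ne_zero (α := K)) (ρ r4) (es (ρ (r4 * r4)) 1 ⊓ es (ρ (r4 * a2)) 1)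
    (fun v hv => by
      have hv1 := Cfsg.Agent.H546.F4Eig.mem_es_one.1 hv.1
      have hv2 := Cfsg.Agent.H546.F4Eig.mem_es_one.1 hv.2
      refine ⟨Cfsg.Agent.H546.F4Eig.mem_es_one.2 (by rw [hzzz, hv1]),
        Cfsg.Agent.H546.F4Eig.mem_es_one.2 ?_⟩
      rw [hza] at hv2 ⊢
      rw [haz, ← hazz, hv1, hv2])
    (fun v hv => by rw [← hzz, Cfsg.Agent.H546.F4Eig.mem_es_one.1 hv.1, one_mul, one_smul])
  have s3 := Cfsg.Agent.H546.F4Eig.split_inv ρ h2 (a := a2) (by decide +kernel) (es (ρ r4) (-1))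
    (fun v hv => by
      have hv1 := Cfsg.Agent.H546.F4Eig.mem_es_neg.1 hv
      refine Cfsg.Agent.H546.F4Eig.mem_es_neg.2 ?_
      have h9 := haz v
      rw [hv1, map_neg, ← hazz, hzz, hv1, map_neg, hv1, neg_neg] at h9
      exact h9.symm)
  have t1 : es (ρ (r4 * r4)) 1 ⊓ es (ρ a2) 1 ⊓ es (ρ r4) 1 = es (ρ r4) 1 ⊓ es (ρ a2) 1 := by
    refine le_antisymm (fun v hv => ⟨hv.2, hv.1.2⟩) fun v hv => ⟨⟨?_, hv.2⟩, hv.1⟩
    have hv1 := Cfsg.Agent.H546.F4Eig.mem_es_one.1 hv.1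
    exact Cfsg.Agent.H546.F4Eig.mem_es_one.2 (by rw [hzz, hv1, hv1])
  have t2 : es (ρ (r4 * r4)) 1 ⊓ es (ρ (r4 * a2)) 1 ⊓ es (ρ r4) 1 = es (ρ r4) 1 ⊓ es (ρ a2) 1 := by
    refine le_antisymm (fun v hv => ⟨hv.2, ?_⟩) fun v hv => ⟨⟨?_, ?_⟩, hv.1⟩
    · have hv1 := Cfsg.Agent.H546.F4Eig.mem_es_one.1 hv.1
      exact Cfsg.Agent.H546.F4Eig.mem_es_one.2 (by rw [hzz, hv1, hv1])
    · have hv1 := Cfsg.Agent.H546.F4Eig.mem_es_one.1 hv.1
      have hv2 := Cfsg.Agent.H546.F4Eig.mem_es_one.1 hv.2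
      exact Cfsg.Agent.H546.F4Eig.mem_es_one.2 (by rw [hza, hv2, hv1])
    · have hv1 := Cfsg.Agent.H546.F4Eig.mem_es_one.1 hv.1.2
      have hv2 := Cfsg.Agent.H546.F4Eig.mem_es_one.1 hv.2
      refine Cfsg.Agent.H546.F4Eig.mem_es_one.2 ?_
      have h9 := haz (ρ a2 v)
      rw [← hza, hv1, haa] at h9
      have h10 := haz v
      rw [hv2, ← hazz, hzz, hv2, hv2] at h10
      rw [h10, ← hza, hv1]
  have t3 : es (ρ (r4 * r4)) 1 ⊓ es (ρ a2) 1 ⊓ es (ρ r4) (-1) = es (ρ r4) (-1) ⊓ es (ρ a2) 1 := by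
    refine le_antisymm (fun v hv => ⟨hv.2, hv.1.2⟩) fun v hv => ⟨⟨?_, hv.2⟩, hv.1⟩
    have hv1 := Cfsg.Agent.H546.F4Eig.mem_es_neg.1 hv.1
    exact Cfsg.Agent.H546.F4Eig.mem_es_one.2 (by rw [hzz, hv1, map_neg, hv1, neg_neg])
  have t4 : es (ρ (r4 * r4)) 1 ⊓ es (ρ (r4 * a2)) 1 ⊓ es (ρ r4) (-1) = es (ρ r4) (-1) ⊓ es (ρ a2) (-1) := by
    refine le_antisymm (fun v hv => ⟨hv.2, ?_⟩) fun v hv => ⟨⟨?_, ?_⟩, hv.1⟩
    · have hv1 := Cfsg.Agent.H546.F4Eig.mem_es_neg.1 hv.1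
      exact Cfsg.Agent.H546.F4Eig.mem_es_one.2 (by rw [hzz, hv1, map_neg, hv1, neg_neg])
    · have hv1 := Cfsg.Agent.H546.F4Eig.mem_es_neg.1 hv.1
      have hv2 := Cfsg.Agent.H546.F4Eig.mem_es_neg.1 hv.2
      exact Cfsg.Agent.H546.F4Eig.mem_es_one.2 (by rw [hza, hv2, map_neg, hv1, neg_neg])
    · have hv1 := Cfsg.Agent.H546.F4Eig.mem_es_one.1 hv.1.2
      have hv2 := Cfsg.Agent.H546.F4Eig.mem_es_neg.1 hv.2
      refine Cfsg.Agent.H546.F4Eig.mem_es_neg.2 ?_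
      have h10 := haz v
      rw [hv2, ← hazz, hzz, hv2, map_neg, map_neg, hv2, neg_neg, ← hza, hv1] at h10
      exact neg_eq_iff_eq_neg.1 h10
  rw [t1, t3] at s1
  rw [t2, t4] at s2
  have u1 : finrank K ↥(es (ρ r4) (-1)) = ev (ρ r4) (-1) := rfl
  have u2 : finrank K ↥(es (ρ r4) 1 ⊓ es (ρ a2) 1) = 0 := by omega
  have h0 : es (ρ r4) 1 ⊓ es (ρ a2) 1 = ⊥ := Submodule.finrank_eq_zero.1 u2
  -- trace relations
  have w1 := Cfsg.Agent.H952.F4.Kill.sum_trace_zero ρ (z := r4) (c := a2) (m := 4) (k := 2) (b := 3)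
    (by decide +kernel) (by decide +kernel) (by norm_num) (by norm_num) (by decide +kernel) (one_pow 2) h0 e1
  have w2 := Cfsg.Agent.H952.F4.Kill.sum_trace_zero ρ (z := r4) (c := a2) (m := 4) (k := 2) (b := 3)
    (by decide +kernel) (by decide +kernel) (by norm_num) (by norm_num) (by decide +kernel) (one_pow 2) h0 e2
  simp only [Finset.sum_range_succ, Finset.sum_range_zero, zero_add, inv_one, one_pow, one_mul] at w1 w2
  have tr : ∀ (k r g : T7), k * r * k⁻¹ = g → LinearMap.trace K V (ρ g) = LinearMap.trace K V (ρ r) :=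
    fun k r g h => by rw [← h, trace_conj]
  rw [tr 1 r5 (a2 ^ 0 * r4 ^ 0 * e1) (by decide +kernel),
    tr ⟨c[4, 5, 6], mem_alternatingGroup.2 (by decide +kernel)⟩ r33 (a2 ^ 0 * r4 ^ 1 * e1) (by decide +kernel),
    tr ⟨c[1, 6, 2, 5] * c[3, 4], mem_alternatingGroup.2 (by decide +kernel)⟩ r7⁻¹ (a2 ^ 0 * r4 ^ 2 * e1)
      (by decide +kernel),
    tr ⟨c[0, 2] * c[1, 4, 5, 6], mem_alternatingGroup.2 (by decide +kernel)⟩ r5 (a2 ^ 0 * r4 ^ 3 * e1)
      (by decide +kernel),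
    tr ⟨c[0, 1, 4, 3, 2], mem_alternatingGroup.2 (by decide +kernel)⟩ r5 (a2 ^ 1 * r4 ^ 0 * e1) (by decide +kernel),
    tr ⟨c[0, 3, 6, 2, 5, 1, 4], mem_alternatingGroup.2 (by decide +kernel)⟩ r4 (a2 ^ 1 * r4 ^ 1 * e1)
      (by decide +kernel),
    tr ⟨c[1, 4, 5, 6, 2], mem_alternatingGroup.2 (by decide +kernel)⟩ r5 (a2 ^ 1 * r4 ^ 2 * e1) (by decide +kernel),
    tr ⟨c[1, 3, 5] * c[2, 4, 6], mem_alternatingGroup.2 (by decide +kernel)⟩ r7 (a2 ^ 1 * r4 ^ 3 * e1)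
      (by decide +kernel), htr] at w1
  rw [tr ⟨c[0, 3, 1, 5, 4, 2, 6], mem_alternatingGroup.2 (by decide +kernel)⟩ r33 (a2 ^ 0 * r4 ^ 0 * e2)
      (by decide +kernel),
    tr ⟨c[2, 3, 4], mem_alternatingGroup.2 (by decide +kernel)⟩ r7 (a2 ^ 0 * r4 ^ 1 * e2) (by decide +kernel),
    tr ⟨c[1, 2, 4, 5, 6], mem_alternatingGroup.2 (by decide +kernel)⟩ r7 (a2 ^ 0 * r4 ^ 2 * e2) (by decide +kernel),
    tr ⟨c[0, 2, 6, 1, 5, 4, 3], mem_alternatingGroup.2 (by decide +kernel)⟩ r33 (a2 ^ 0 * r4 ^ 3 * e2)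
      (by decide +kernel),
    tr ⟨c[2, 4, 6], mem_alternatingGroup.2 (by decide +kernel)⟩ r7⁻¹ (a2 ^ 1 * r4 ^ 0 * e2) (by decide +kernel),
    tr ⟨c[1, 4, 5, 3, 6], mem_alternatingGroup.2 (by decide +kernel)⟩ r7⁻¹ (a2 ^ 1 * r4 ^ 1 * e2)
      (by decide +kernel),
    tr ⟨c[0, 1, 2, 5, 4, 3, 6], mem_alternatingGroup.2 (by decide +kernel)⟩ r4 (a2 ^ 1 * r4 ^ 2 * e2)
      (by decide +kernel),
    tr ⟨c[1, 3, 6] * c[2, 5, 4], mem_alternatingGroup.2 (by decide +kernel)⟩ r4 (a2 ^ 1 * r4 ^ 3 * e2)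
      (by decide +kernel)] at w2
  have w3 : (2 : K) * (2 * (2 * 2)) = 0 := by linear_combination 2 * w1 - w2
  exact (mul_ne_zero h2 (mul_ne_zero h2 (mul_ne_zero h2 h2))) w3

end

end Cfsg.Agent.H931.E6
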