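import Cfsg.Agent.H931.E6.Span
import Cfsg.Agent.H952.F4.Scott
import Cfsg.Agent.H952.F4.Gen
import Cfsg.Agent.H952.F4.Eig

/-!
# The four-cycle relations by Scott's lemma (helper931)

`four_ne_three`, `four_three` : an equivariant symmetric family `b` in a 27-dimensional module of `A₇` without fixed
vectors, with `dim W^c = 7` for the 5-cycles `c`, satisfies the four-cycle relations (characteristic not 2, 3, 5, 7,
resp. 3).
-/

set_option autoImplicit false

namespace Cfsg.Agent.H931.E6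

open Equiv Equiv.Perm Module
open Cfsg.Agent.H952.F4 (ev es)

variable {K W : Type*} [Field K] [AddCommGroup W] [Module K W] {ρ : Representation K T7 W} {b : Fin 7 → Fin 7 → W}

theorem mem_es1 {T : Module.End K W} {v : W} : v ∈ es T 1 ↔ T v = v := by
  rw [es, Module.End.mem_eigenspace_iff, one_smul]

theorem rho_inv (ρ : Representation K T7 W) (g : T7) (v : W) : ρ g⁻¹ (ρ g v) = v := by
  rw [← Module.End.mul_apply, ← map_mul, inv_mul_cancel, map_one, Module.End.one_apply]

theorem rho_fix_inv {g : T7} {v : W} (h : ρ g v = v) : ρ g⁻¹ v = v := by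
  conv_lhs => rw [← h]
  exact rho_inv ρ g v

theorem rho_fix_pow {g : T7} {v : W} (h : ρ g v = v) (n : ℕ) : ρ (g ^ n) v = v := by
  induction n with
  | zero => rw [pow_zero, map_one, Module.End.one_apply]
  | succ n ih => rw [pow_succ, map_mul, Module.End.mul_apply, h, ih]

/-- fixed vectors of the 5-cycle in `US` -/
theorem Equi.five_smul (h2 : (2 : K) ≠ 0) (hb : Equi ρ b) {u : W} (hu : u ∈ US K b) (hfix : ρ pc u = u) :
    ∃ α β : K, (5 : K) • u = α • phi K b (fun i j => (aa i j : K)) + β • phi K b (fun i j => (dd i j : K)) := by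
  obtain ⟨f, hf, rfl⟩ := hu
  have hf' : S14 f := hf
  refine ⟨f 0 1, f 2 3 + f 3 4 + f 4 5 + f 5 6 + f 6 2, ?_⟩
  have h1 : ∀ k : Fin 5, phi K b (fun i j => f (rt k i) (rt k j)) = phi K b f := by
    intro k
    have h3 := hb.phi_comp (pc ^ (k : ℕ)) f
    simp only [pc_pow] at h3
    rw [← rho_inv ρ (pc ^ (k : ℕ)) (phi K b fun i j => f (rt k i) (rt k j)), h3]
    exact rho_fix_inv (rho_fix_pow hfix k)
  have h4 : (∑ k : Fin 5, (fun i j => f (rt k i) (rt k j))) =
      (f 0 1 • fun i j => (aa i j : K)) + ((f 2 3 + f 3 4 + f 4 5 + f 5 6 + f 6 2) • fun i j => (dd i j : K)) := by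
    funext i j
    have := rsum h2 hf' i j
    simp only [Finset.sum_apply, Pi.add_apply, Pi.smul_apply, smul_eq_mul]
    exact this
  have h5 := congrArg (phi K b) h4
  rw [map_sum, map_add, map_smul, map_smul, Finset.sum_congr rfl fun k _ => h1 k, Finset.sum_const,
    Finset.card_univ, Fintype.card_fin, ← Nat.cast_smul_eq_nsmul K] at h5
  exact_mod_cast h5

theorem Equi.finrank_fix_le_two [FiniteDimensional K W] (h2 : (2 : K) ≠ 0) (h5 : (5 : K) ≠ 0) (hb : Equi ρ b) :
    finrank K ↥(US K b ⊓ es (ρ pc) 1) ≤ 2 := by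
  classical
  have h1 : US K b ⊓ es (ρ pc) 1 ≤ Submodule.span K
      (({phi K b (fun i j => (aa i j : K)), phi K b (fun i j => (dd i j : K))} : Finset W) : Set W) := by
    rintro u ⟨hu, hu'⟩
    obtain ⟨α, β, h⟩ := hb.five_smul h2 hu (mem_es1.1 hu')
    rw [← Submodule.smul_mem_iff _ h5, h]
    refine Submodule.add_mem _ (Submodule.smul_mem _ _ (Submodule.subset_span (by simp)))
      (Submodule.smul_mem _ _ (Submodule.subset_span (by simp)))
  exact (Submodule.finrank_mono h1).trans ((finrank_span_finset_le_card _).trans Finset.card_le_two)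

theorem Equi.phi_ones (hb : Equi ρ b) (hfix : NoFix ρ) :
    phi K b (fun i j => if i = j then (0 : K) else 1) = 0 := by
  apply hfix
  intro g
  have h := hb.phi_comp g (fun i j => if i = j then (0 : K) else 1)
  have h1 : (fun i j => if ((g : Perm (Fin 7)) i) = ((g : Perm (Fin 7)) j) then (0 : K) else 1) =
      fun i j => if i = j then (0 : K) else 1 := by
    funext i j
    simp only [EmbeddingLike.apply_eq_iff_eq]
  rw [h1] at h
  exact h

theorem aux_aa : ∀ i j, aa i j = dd i j - (if i = j then 0 else 1) +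
    3 * ((aa i j - dd i j + (if i = j then 0 else 1)) / 3) := by
  decide +kernel

theorem Equi.phi_aa (h3 : (3 : K) = 0) (hb : Equi ρ b) (hfix : NoFix ρ) :
    phi K b (fun i j => (aa i j : K)) = phi K b (fun i j => (dd i j : K)) := by
  have h1 : (fun i j => (aa i j : K)) = (fun i j => (dd i j : K)) -
      (fun i j => if i = j then (0 : K) else 1) := by
    funext i j
    have h4 := congrArg (fun z : ℤ => (z : K)) (aux_aa i j)
    simp only [Int.cast_add, Int.cast_sub, Int.cast_mul, Int.cast_ofNat, h3, zero_mul, add_zero, Int.cast_ite,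
      Int.cast_zero, Int.cast_one] at h4
    exact h4
  rw [h1, map_sub, hb.phi_ones hfix, sub_zero]

theorem Equi.finrank_fix_le_one [FiniteDimensional K W] (h3 : (3 : K) = 0) (hb : Equi ρ b) (hfix : NoFix ρ) :
    finrank K ↥(US K b ⊓ es (ρ pc) 1) ≤ 1 := by
  classical
  have h2 : (2 : K) ≠ 0 := by
    intro h
    exact one_ne_zero (α := K) (by linear_combination h3 - h)
  have h5 : (5 : K) ≠ 0 := by
    intro h
    exact one_ne_zero (α := K) (by linear_combination 2 * h3 - h)
  have h1 : US K b ⊓ es (ρ pc) 1 ≤ Submodule.span K (({phi K b (fun i j => (dd i j : K))} : Finset W) : Set W) := by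
    rintro u ⟨hu, hu'⟩
    obtain ⟨α, β, h⟩ := hb.five_smul h2 hu (mem_es1.1 hu')
    rw [← Submodule.smul_mem_iff _ h5, h, hb.phi_aa h3 hfix]
    refine Submodule.add_mem _ (Submodule.smul_mem _ _ (Submodule.subset_span (by simp)))
      (Submodule.smul_mem _ _ (Submodule.subset_span (by simp)))
  exact (Submodule.finrank_mono h1).trans ((finrank_span_finset_le_card _).trans (by simp))

/-! ### Conjugation -/

theorem finrank_conj_le [FiniteDimensional K W] {U : Submodule K W} (hU : ∀ g : T7, ∀ x ∈ U, ρ g x ∈ U) {h x y : T7}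
    (hxy : h * x * h⁻¹ = y) : finrank K ↥(U ⊓ es (ρ y) 1) ≤ finrank K ↥(U ⊓ es (ρ x) 1) := by
  have h1 : (U ⊓ es (ρ y) 1).map (ρ h⁻¹) ≤ U ⊓ es (ρ x) 1 := by
    rintro _ ⟨u, ⟨hu, hu'⟩, rfl⟩
    refine ⟨hU _ _ hu, mem_es1.2 ?_⟩
    have h2 : x * h⁻¹ = h⁻¹ * y := by rw [← hxy]; group
    rw [← Module.End.mul_apply, ← map_mul, h2, map_mul, Module.End.mul_apply, mem_es1.1 hu']
  have h3 : Function.Injective (ρ h⁻¹) := by
    intro a b hab
    have h5 := rho_inj ρ h⁻¹ (x := a - b) (by rw [map_sub, hab, sub_self])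
    exact sub_eq_zero.1 h5
  have h4 := Submodule.finrank_mono h1
  rwa [← (Submodule.equivMapOfInjective _ h3 _).finrank_eq] at h4

/-- dimension of the fixed space of `g` on the quotient -/
theorem ev_quotient [FiniteDimensional K W] {U : Submodule K W} (hU : ∀ g : T7, U ≤ U.comap (ρ g)) (g : T7) :
    ev (ρ g) 1 ≤ ev (ρ.quotient U hU g) 1 + finrank K ↥(U ⊓ es (ρ g) 1) := by
  have h1 : (es (ρ g) 1).map U.mkQ ≤ es (ρ.quotient U hU g) 1 := by
    rintro _ ⟨v, hv, rfl⟩
    rw [mem_es1]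
    change U.mkQ (ρ g v) = U.mkQ v
    rw [mem_es1.1 hv]
  have h2 := Submodule.finrank_mono h1
  have h3 := LinearMap.finrank_range_add_finrank_ker (U.mkQ.domRestrict (es (ρ g) 1))
  rw [LinearMap.range_domRestrict] at h3
  have h4 : (LinearMap.ker (U.mkQ.domRestrict (es (ρ g) 1))).map (es (ρ g) 1).subtype ≤ U ⊓ es (ρ g) 1 := by
    rintro _ ⟨⟨v, hv⟩, hk, rfl⟩
    exact ⟨(Submodule.Quotient.mk_eq_zero _).1 (LinearMap.mem_ker.1 hk), hv⟩
  have h5 := Submodule.finrank_mono h4
  rw [Submodule.finrank_map_subtype_eq] at h5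
  change finrank K ↥(es (ρ g) 1) ≤ finrank K ↥(es (ρ.quotient U hU g) 1) + _
  omega

theorem dual_quotient [FiniteDimensional K W] {U : Submodule K W} (hU : ∀ g : T7, U ≤ U.comap (ρ g))
    (hd : ρ.dual.invariants = ⊥) : (ρ.quotient U hU).dual.invariants = ⊥ := by
  rw [eq_bot_iff]
  intro f hf
  rw [Representation.mem_invariants] at hf
  have h1 : f.comp U.mkQ ∈ ρ.dual.invariants := by
    rw [Representation.mem_invariants]
    intro g
    have h2 := hf g
    refine LinearMap.ext fun v => ?_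
    exact LinearMap.congr_fun h2 (U.mkQ v)
  rw [hd, Submodule.mem_bot] at h1
  rw [Submodule.mem_bot]
  refine LinearMap.ext fun x => ?_
  obtain ⟨v, rfl⟩ := U.mkQ_surjective x
  exact LinearMap.congr_fun h1 v

/-- Fixed vectors of a quotient lift to fixed vectors of a cyclic subgroup of order invertible in `K`. -/
theorem inv_quotient_le [FiniteDimensional K W] {U : Submodule K W} (hU : ∀ g : T7, U ≤ U.comap (ρ g)) {z : T7} {m : ℕ}
    (hm : (m : K) ≠ 0) (hz : z ^ m = 1) : finrank K ↥(ρ.quotient U hU).invariants ≤ ev (ρ z) 1 := by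
  have hm0 : m ≠ 0 := by rintro rfl; exact hm Nat.cast_zero
  have h1 : (ρ.quotient U hU).invariants ≤ (es (ρ z) 1).map U.mkQ := by
    intro x hx
    rw [Representation.mem_invariants] at hx
    obtain ⟨v, rfl⟩ := U.mkQ_surjective x
    have h2 : ∀ g : T7, U.mkQ (ρ g v) = U.mkQ v := fun g => hx g
    refine ⟨(m : K)⁻¹ • ∑ k ∈ Finset.range m, ρ (z ^ k) v, mem_es1.2 ?_, ?_⟩
    · rw [map_smul, map_sum]
      congr 1
      have h3 : ∀ k, ρ z (ρ (z ^ k) v) = ρ (z ^ (k + 1)) v := fun k => by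
        rw [← Module.End.mul_apply, ← map_mul, pow_succ']
      simp only [h3]
      have h4 := Finset.sum_range_succ (fun k => ρ (z ^ k) v) m
      have h5 := Finset.sum_range_succ' (fun k => ρ (z ^ k) v) m
      rw [h4, hz, pow_zero] at h5
      exact (add_right_cancel h5).symm
    · rw [map_smul, map_sum, Finset.sum_congr rfl fun k _ => h2 (z ^ k), Finset.sum_const, Finset.card_range,
        ← Nat.cast_smul_eq_nsmul K, smul_smul, inv_mul_cancel₀ hm, one_smul]
  exact (Submodule.finrank_mono h1).trans (Submodule.finrank_map_le _ _)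

/-- Fixed vectors of a quotient lift if the order of the group is invertible. -/
theorem inv_quotient [FiniteDimensional K W] {U : Submodule K W} (hU : ∀ g : T7, U ≤ U.comap (ρ g))
    (hm : ((Fintype.card T7 : ℕ) : K) ≠ 0) (hfix : NoFix ρ) : (ρ.quotient U hU).invariants = ⊥ := by
  rw [eq_bot_iff]
  intro x hx
  rw [Representation.mem_invariants] at hx
  obtain ⟨v, rfl⟩ := U.mkQ_surjective x
  have h2 : ∀ g : T7, U.mkQ (ρ g v) = U.mkQ v := fun g => hx g
  have h3 : ∑ g : T7, ρ g v = 0 := by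
    apply hfix
    intro h
    rw [map_sum]
    have h4 : ∀ g, ρ h (ρ g v) = ρ (h * g) v := fun g => by rw [map_mul, Module.End.mul_apply]
    simp only [h4]
    exact Equiv.sum_comp (Equiv.mulLeft h) fun g => ρ g v
  have h4 := congrArg U.mkQ h3
  rw [map_sum, Finset.sum_congr rfl fun g _ => h2 g, Finset.sum_const, Finset.card_univ, map_zero,
    ← Nat.cast_smul_eq_nsmul K] at h4
  exact (Submodule.mem_bot K).2 ((smul_eq_zero.1 h4).resolve_left hm)

/-! ### Generation by two 5-cycles -/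

/-- the second 5-cycle -/
def py : T7 := ⟨c[0, 1, 2, 6, 5], mem_alternatingGroup.2 (by decide +kernel)⟩

theorem gen_pc_py : Subgroup.closure {pc, py} = ⊤ := by
  rw [eq_top_iff]
  intro σ _
  let H : Subgroup (Perm (Fin 7)) := (Subgroup.closure {pc, py}).map (alternatingGroup (Fin 7)).subtype
  have hx : (pc : Perm (Fin 7)) ∈ H := ⟨pc, Subgroup.subset_closure (by simp), rfl⟩
  have hy : (py : Perm (Fin 7)) ∈ H := ⟨py, Subgroup.subset_closure (by simp), rfl⟩
  have h1 : (σ : Perm (Fin 7)) ∈ H := by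
    refine Cfsg.Agent.H952.F4.Gen.mem_of_star (n := 5) H ?_ ?_ σ.2
    · rintro _ ⟨x, -, rfl⟩
      exact x.2
    · have hW : ∀ k : Fin 7, k ≠ 0 → Cfsg.Agent.H952.F4.Gen.ev (pc : Perm (Fin 7)) (py : Perm (Fin 7))
          ((![[], [], [2, 1, 1, 2, 1, 1], [0, 2, 1, 1, 2, 0, 0], [0, 0, 2, 1, 1, 2, 0], [1, 1, 2, 1, 1, 2],
            [1, 2, 1, 1, 2, 1]] : Fin 7 → List (Fin 4)) k) = swap 0 1 * swap 0 k := by
        decide +kernel
      intro k hk
      rw [← hW k hk]
      exact Cfsg.Agent.H952.F4.Gen.ev_mem hx hy _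
  obtain ⟨τ, hτ, h3⟩ := h1
  rwa [← Subtype.ext h3]

theorem conj_py : (⟨c[0, 4, 2] * (c[1, 3] * c[5, 6]), mem_alternatingGroup.2 (by decide +kernel)⟩ : T7) * pc *
    (⟨c[0, 4, 2] * (c[1, 3] * c[5, 6]), mem_alternatingGroup.2 (by decide +kernel)⟩ : T7)⁻¹ = py := by
  decide +kernel

theorem conj_pcpy : (⟨c[0, 6, 5, 4, 3, 1, 2], mem_alternatingGroup.2 (by decide +kernel)⟩ : T7) * pc *
    (⟨c[0, 6, 5, 4, 3, 1, 2], mem_alternatingGroup.2 (by decide +kernel)⟩ : T7)⁻¹ = pc * py := by
  decide +kernel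

theorem type_py : (py : Perm (Fin 7)).cycleType = {5} := by decide +kernel

theorem type_pc : (pc : Perm (Fin 7)).cycleType = {5} := by decide +kernel

theorem type_pcpy : ((pc * py : T7) : Perm (Fin 7)).cycleType = {5} := by decide +kernel

/-- characteristic not `2, 3, 5, 7` -/
theorem four_ne_three [FiniteDimensional K W] (h2 : (2 : K) ≠ 0) (h3 : (3 : K) ≠ 0) (h5 : (5 : K) ≠ 0)
    (h7 : (7 : K) ≠ 0) (h27 : finrank K W = 27) (hfix : NoFix ρ) (hd : ρ.dual.invariants = ⊥)
    (hev : ∀ g : T7, (g : Perm (Fin 7)).cycleType = {5} → 7 ≤ ev (ρ g) 1) (hb : Equi ρ b) : Four b := by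
  by_contra hF
  have hU : ∀ g : T7, US K b ≤ (US K b).comap (ρ g) := fun g x hx => hb.US_stable g hx
  have hU' : ∀ g : T7, ∀ x ∈ US K b, ρ g x ∈ US K b := fun g x hx => hb.US_stable g hx
  have h14 := hb.finrank_US h2 h3 h5 hF
  have e0 := hb.finrank_fix_le_two h2 h5
  have e1 := finrank_conj_le hU' conj_py
  have e2 := finrank_conj_le hU' conj_pcpy
  have hs := Cfsg.Agent.H952.F4.Scott.scott (ρ.quotient (US K b) hU) gen_pc_py
  have q0 := ev_quotient hU pc
  have q1 := ev_quotient hU py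
  have q2 := ev_quotient hU (pc * py)
  have c0 := hev _ type_pc
  have c1 := hev _ type_py
  have c2 := hev _ type_pcpy
  have hcard : ((Fintype.card T7 : ℕ) : K) ≠ 0 := by
    have h8 : Fintype.card T7 = 2520 := by
      have h9 : 2 * Nat.card T7 = Nat.card (Perm (Fin 7)) := two_mul_nat_card_alternatingGroup
      rw [Nat.card_perm, Nat.card_eq_fintype_card, Nat.card_eq_fintype_card, Fintype.card_fin] at h9
      have h10 : Nat.factorial 7 = 5040 := by norm_num [Nat.factorial]
      omega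
    rw [h8]
    have h11 : ((2520 : ℕ) : K) = 2 * 2 * 2 * 3 * 3 * 5 * 7 := by norm_num
    rw [h11]
    exact mul_ne_zero (mul_ne_zero (mul_ne_zero (mul_ne_zero (mul_ne_zero (mul_ne_zero h2 h2) h2) h3) h3) h5) h7
  rw [inv_quotient hU hcard hfix, dual_quotient hU hd, finrank_bot, finrank_bot] at hs
  have hq := Submodule.finrank_quotient_add_finrank (US K b)
  rw [h27] at hq
  omega

/-- characteristic `3` -/
theorem four_three [FiniteDimensional K W] (h3 : (3 : K) = 0) (h27 : finrank K W = 27) (hfix : NoFix ρ)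
    (hd : ρ.dual.invariants = ⊥) (hev : ∀ g : T7, (g : Perm (Fin 7)).cycleType = {5} → 7 ≤ ev (ρ g) 1)
    {z : T7} (hz : z ^ 7 = 1) (hz3 : ev (ρ z) 1 ≤ 3) (hb : Equi ρ b) : Four b := by
  have h2 : (2 : K) ≠ 0 := by
    intro h
    exact one_ne_zero (α := K) (by linear_combination h3 - h)
  have h5 : (5 : K) ≠ 0 := by
    intro h
    exact one_ne_zero (α := K) (by linear_combination 2 * h3 - h)
  have h7 : ((7 : ℕ) : K) ≠ 0 := by
    intro h
    exact one_ne_zero (α := K) (by push_cast at h; linear_combination h - 2 * h3)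
  by_contra hF
  have hU : ∀ g : T7, US K b ≤ (US K b).comap (ρ g) := fun g x hx => hb.US_stable g hx
  have hU' : ∀ g : T7, ∀ x ∈ US K b, ρ g x ∈ US K b := fun g x hx => hb.US_stable g hx
  have h13 := hb.finrank_US' h2 h5 hF
  have e0 := hb.finrank_fix_le_one h3 hfix
  have e1 := finrank_conj_le hU' conj_py
  have e2 := finrank_conj_le hU' conj_pcpy
  have hs := Cfsg.Agent.H952.F4.Scott.scott (ρ.quotient (US K b) hU) gen_pc_py
  have q0 := ev_quotient hU pc
  have q1 := ev_quotient hU py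
  have q2 := ev_quotient hU (pc * py)
  have c0 := hev _ type_pc
  have c1 := hev _ type_py
  have c2 := hev _ type_pcpy
  have hi := inv_quotient_le hU h7 hz
  rw [dual_quotient hU hd, finrank_bot] at hs
  have hq := Submodule.finrank_quotient_add_finrank (US K b)
  rw [h27] at hq
  omega

end Cfsg.Agent.H931.E6
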