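import Cfsg.Agent.H931.E6.Fun

/-!
# The span of the crosses (helper931)

`Equi ρ b` : `b : Fin 7 → Fin 7 → W` symmetric and equivariant. `phi b f = Σ f i j • b i j`, `US b = phi (S14)`. If the
four-cycle relations do not hold for `b` then `phi` is injective on `S14` up to constants.
-/

set_option autoImplicit false

namespace Cfsg.Agent.H931.E6

open Equiv Equiv.Perm

variable {K W : Type*} [Field K] [AddCommGroup W] [Module K W]

/-- symmetric equivariant families -/
structure Equi (ρ : Representation K T7 W) (b : Fin 7 → Fin 7 → W) : Prop where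
  symm : ∀ i j, b i j = b j i
  act : ∀ (g : T7) i j, ρ g (b i j) = b ((g : Perm (Fin 7)) i) ((g : Perm (Fin 7)) j)

/-- the linear map `f ↦ Σ f i j • b i j` -/
def phi (K : Type*) [Field K] {W : Type*} [AddCommGroup W] [Module K W] (b : Fin 7 → Fin 7 → W) :
    (Fin 7 → Fin 7 → K) →ₗ[K] W where
  toFun f := ∑ i, ∑ j, f i j • b i j
  map_add' f g := by
    simp only [Pi.add_apply, add_smul, Finset.sum_add_distrib]
  map_smul' a f := by
    simp only [Pi.smul_apply, smul_eq_mul, mul_smul, Finset.smul_sum, RingHom.id_apply]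

theorem phi_apply (b : Fin 7 → Fin 7 → W) (f : Fin 7 → Fin 7 → K) : phi K b f = ∑ i, ∑ j, f i j • b i j := rfl

variable {ρ : Representation K T7 W} {b : Fin 7 → Fin 7 → W}

theorem Equi.phi_comp (hb : Equi ρ b) (g : T7) (f : Fin 7 → Fin 7 → K) :
    ρ g (phi K b fun i j => f ((g : Perm (Fin 7)) i) ((g : Perm (Fin 7)) j)) = phi K b f := by
  rw [phi_apply, phi_apply, map_sum]
  simp only [map_sum, map_smul, hb.act]
  refine Eq.trans (Finset.sum_congr rfl fun i _ =>
    Equiv.sum_comp (g : Perm (Fin 7)) fun j => f ((g : Perm (Fin 7)) i) j • b ((g : Perm (Fin 7)) i) j) ?_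
  exact Equiv.sum_comp (g : Perm (Fin 7)) fun i => ∑ j, f i j • b i j

theorem rho_inj (ρ : Representation K T7 W) (g : T7) {x : W} (h : ρ g x = 0) : x = 0 := by
  have h1 : ρ g⁻¹ (ρ g x) = x := by
    rw [← Module.End.mul_apply, ← map_mul, inv_mul_cancel, map_one, Module.End.one_apply]
  rw [← h1, h, map_zero]

theorem Equi.phi_comp_zero (hb : Equi ρ b) (g : T7) {f : Fin 7 → Fin 7 → K} (h : phi K b f = 0) :
    phi K b (fun i j => f ((g : Perm (Fin 7)) i) ((g : Perm (Fin 7)) j)) = 0 :=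
  rho_inj ρ g (by rw [hb.phi_comp, h])

/-- the 5-cycle -/
def pc : T7 := ⟨c[2, 3, 4, 5, 6], mem_alternatingGroup.2 (by decide +kernel)⟩

/-- the element `(0 1)(3 4 6 5)` -/
def pt : T7 := ⟨c[0, 1] * c[3, 4, 6, 5], mem_alternatingGroup.2 (by decide +kernel)⟩

theorem pc_pow (k : Fin 5) (i : Fin 7) : ((pc ^ (k : ℕ) : T7) : Perm (Fin 7)) i = rt k i := by
  revert k i; decide +kernel

theorem pc_pt (k : Fin 5) (i : Fin 7) : ((pc ^ (k : ℕ) * pt : T7) : Perm (Fin 7)) i = tt k i := by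
  revert k i; decide +kernel

theorem phi_dd (hs : ∀ i j, b i j = b j i) : phi K b (fun i j => (dd i j : K)) = (2 : K) • pent b 2 3 4 5 6 := by
  rw [phi_apply]
  simp only [Fin.sum_univ_seven]
  simp only [dd, pent, Matrix.cons_val, Int.cast_zero, Int.cast_one, Int.cast_neg, zero_smul, one_smul, zero_add,
    add_zero, neg_smul]
  rw [hs 3 2, hs 4 2, hs 5 2, hs 6 2, hs 4 3, hs 5 3, hs 6 3, hs 5 4, hs 6 4, hs 6 5]
  module

/-- the key relation -/
theorem Equi.pent_smul (hb : Equi ρ b) {f : Fin 7 → Fin 7 → K} (hf : S14 f) (h0 : phi K b f = 0) :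
    pent f 2 3 4 5 6 • (2 : K) • pent b 2 3 4 5 6 = 0 := by
  rw [← phi_dd hb.symm, ← map_smul]
  have h1 : (pent f 2 3 4 5 6 • fun i j => (dd i j : K)) = (∑ k : Fin 5, (fun i j => f (rt k i) (rt k j))) -
      ∑ k : Fin 5, (fun i j => f (tt k i) (tt k j)) := by
    funext i j
    rw [Pi.smul_apply, Pi.smul_apply, smul_eq_mul, ← gsum hf i j]
    simp only [Pi.sub_apply, Finset.sum_apply]
  rw [h1, map_sub, map_sum, map_sum]
  have h2 : ∀ k : Fin 5, phi K b (fun i j => f (rt k i) (rt k j)) = 0 := by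
    intro k
    have := hb.phi_comp_zero (pc ^ (k : ℕ)) h0
    simpa only [pc_pow] using this
  have h3 : ∀ k : Fin 5, phi K b (fun i j => f (tt k i) (tt k j)) = 0 := by
    intro k
    have := hb.phi_comp_zero (pc ^ (k : ℕ) * pt) h0
    simpa only [pc_pt] using this
  rw [Finset.sum_eq_zero fun k _ => h2 k, Finset.sum_eq_zero fun k _ => h3 k, sub_zero]

theorem five_trans {i j k l m : Fin 7} (hij : i ≠ j) (hik : i ≠ k) (hil : i ≠ l) (him : i ≠ m) (hjk : j ≠ k)
    (hjl : j ≠ l) (hjm : j ≠ m) (hkl : k ≠ l) (hkm : k ≠ m) (hlm : l ≠ m) :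
    ∃ g : T7, (g : Perm (Fin 7)) 2 = i ∧ (g : Perm (Fin 7)) 3 = j ∧ (g : Perm (Fin 7)) 4 = k ∧
      (g : Perm (Fin 7)) 5 = l ∧ (g : Perm (Fin 7)) 6 = m := by
  obtain ⟨p, hp⟩ := pick [i, j, k, l, m] (by simp)
  obtain ⟨q, hq⟩ := pick [i, j, k, l, m, p] (by simp)
  simp only [List.mem_cons, List.not_mem_nil, or_false, not_or] at hp hq
  have hinj : Function.Injective ![p, q, i, j, k, l, m] := by
    intro a b hab
    fin_cases a <;> fin_cases b <;> simp_all [eq_comm]
  let σ : Perm (Fin 7) := Equiv.ofBijective _ (Finite.injective_iff_bijective.1 hinj)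
  have hσ : ∀ a, σ a = ![p, q, i, j, k, l, m] a := fun a => rfl
  by_cases hs : sign σ = 1
  · exact ⟨⟨σ, mem_alternatingGroup.2 hs⟩, rfl, rfl, rfl, rfl, rfl⟩
  · have hs' : sign (σ * Equiv.swap 0 1) = 1 := by
      rw [map_mul, sign_swap (by decide), Int.units_ne_iff_eq_neg.1 hs]
      rfl
    refine ⟨⟨σ * Equiv.swap 0 1, mem_alternatingGroup.2 hs'⟩, ?_, ?_, ?_, ?_, ?_⟩
    · change σ (Equiv.swap 0 1 2) = i
      rw [swap_apply_of_ne_of_ne (by decide) (by decide)]; rfl
    · change σ (Equiv.swap 0 1 3) = j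
      rw [swap_apply_of_ne_of_ne (by decide) (by decide)]; rfl
    · change σ (Equiv.swap 0 1 4) = k
      rw [swap_apply_of_ne_of_ne (by decide) (by decide)]; rfl
    · change σ (Equiv.swap 0 1 5) = l
      rw [swap_apply_of_ne_of_ne (by decide) (by decide)]; rfl
    · change σ (Equiv.swap 0 1 6) = m
      rw [swap_apply_of_ne_of_ne (by decide) (by decide)]; rfl

theorem four_of_pent {M : Type*} [AddCommGroup M] [Module K M] (h2 : (2 : K) ≠ 0) {b : Fin 7 → Fin 7 → M}
    (hs : ∀ i j, b i j = b j i)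
    (h : ∀ g : T7, pent b ((g : Perm (Fin 7)) 2) ((g : Perm (Fin 7)) 3) ((g : Perm (Fin 7)) 4) ((g : Perm (Fin 7)) 5)
      ((g : Perm (Fin 7)) 6) = 0) : Four b := by
  intro i j k l hij hik hil hjk hjl hkl
  obtain ⟨m, hm⟩ := pick [i, j, k, l] (by simp)
  simp only [List.mem_cons, List.not_mem_nil, or_false, not_or] at hm
  obtain ⟨m1, m2, m3, m4⟩ := hm
  replace m1 : m ≠ i := m1
  replace m2 : m ≠ j := m2
  replace m3 : m ≠ k := m3
  replace m4 : m ≠ l := m4
  have h' : ∀ {i j k l m : Fin 7}, i ≠ j → i ≠ k → i ≠ l → i ≠ m → j ≠ k → j ≠ l → j ≠ m → k ≠ l → k ≠ m → l ≠ m →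
      pent b i j k l m = 0 := by
    intro i j k l m a1 a2 a3 a4 a5 a6 a7 a8 a9 a10
    obtain ⟨g, g1, g2, g3, g4, g5⟩ := five_trans a1 a2 a3 a4 a5 a6 a7 a8 a9 a10
    have := h g
    rwa [g1, g2, g3, g4, g5] at this
  have h1 := four_alt (K := K) b hs i j k l m
  rw [h' hij hik hil m1.symm hjk hjl m2.symm hkl m3.symm m4.symm,
    h' hij hik m1.symm hil hjk m2.symm hjl m3.symm hkl m4,
    h' hij hil hik m1.symm hjl hjk m2.symm hkl.symm m4.symm m3.symm,
    h' hij hil m1.symm hik hjl m2.symm hjk m4.symm hkl.symm m3,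
    h' hij m1.symm hik hil m2.symm hjk hjl m3 m4 hkl,
    h' hij m1.symm hil hik m2.symm hjl hjk m4 m3 hkl.symm] at h1
  simp only [neg_zero, smul_zero, add_zero, sub_zero] at h1
  have h4 : (4 : K) ≠ 0 := by
    rw [show (4 : K) = 2 * 2 by norm_num]
    exact mul_ne_zero h2 h2
  have h3 := (smul_eq_zero.1 h1).resolve_left h4
  rw [alt] at h3
  rw [← sub_eq_zero, ← h3, hs k j]
  rw [hs l i]
  abel

theorem Equi.pent_act (hb : Equi ρ b) (g : T7) (i j k l m : Fin 7) : ρ g (pent b i j k l m) =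
    pent b ((g : Perm (Fin 7)) i) ((g : Perm (Fin 7)) j) ((g : Perm (Fin 7)) k) ((g : Perm (Fin 7)) l)
      ((g : Perm (Fin 7)) m) := by
  simp only [pent, map_add, map_sub, hb.act]

/-- the kernel of `phi` on `S14` consists of constant functions -/
theorem Equi.const (h2 : (2 : K) ≠ 0) (h5 : (5 : K) ≠ 0) (hb : Equi ρ b) (hF : ¬ Four b) {f : Fin 7 → Fin 7 → K}
    (hf : S14 f) (h0 : phi K b f = 0) {i j : Fin 7} (hij : i ≠ j) : f i j = f 0 1 := by
  have hne : pent b 2 3 4 5 6 ≠ 0 := by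
    intro h
    apply hF
    refine four_of_pent (K := K) h2 hb.symm fun g => ?_
    rw [← hb.pent_act, h, map_zero]
  have h1 : ∀ g : T7, pent f ((g : Perm (Fin 7)) 2) ((g : Perm (Fin 7)) 3) ((g : Perm (Fin 7)) 4)
      ((g : Perm (Fin 7)) 5) ((g : Perm (Fin 7)) 6) = 0 := by
    intro g
    have h3 := hb.pent_smul (hf.comp (g : Perm (Fin 7))) (hb.phi_comp_zero g h0)
    rw [smul_smul] at h3
    have h4 := (smul_eq_zero.1 h3).resolve_right hne
    exact (mul_eq_zero.1 h4).resolve_right h2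
  have hFf : Four f := four_of_pent (K := K) h2 hf.symm h1
  have h3 : ∀ {i j : Fin 7}, i ≠ j → f i j = cof K f i + cof K f j := fun {i j} hij => eq_cof_add h2 hFf hf.symm hij
  -- all `cof` are equal
  have h4 : ∀ i, (5 : K) * cof K f i = - ∑ j, cof K f j := by
    intro i
    have h6 : ∑ j, f i j = f i i + ∑ j ∈ Finset.univ.erase i, f i j :=
      (Finset.add_sum_erase _ _ (Finset.mem_univ i)).symm
    have h7 : ∑ j ∈ Finset.univ.erase i, f i j = ∑ j ∈ Finset.univ.erase i, (cof K f i + cof K f j) :=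
      Finset.sum_congr rfl fun j hj => h3 (Ne.symm (Finset.ne_of_mem_erase hj))
    have h8 := Finset.add_sum_erase Finset.univ (cof K f) (Finset.mem_univ i)
    rw [hf.row, hf.diag, h7, Finset.sum_add_distrib, Finset.sum_const, Finset.card_erase_of_mem (Finset.mem_univ i),
      Finset.card_univ, Fintype.card_fin] at h6
    have h9 : ∑ j ∈ Finset.univ.erase i, cof K f j = ∑ j, cof K f j - cof K f i := by rw [← h8]; ring
    rw [h9] at h6
    simp only [nsmul_eq_mul] at h6
    norm_num at h6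
    linear_combination -h6
  have h10 : ∀ i, cof K f i = cof K f 0 := fun i => mul_left_cancel₀ h5 (by rw [h4, h4])
  rw [h3 hij, h10 i, h10 j, h3 (by decide : (0 : Fin 7) ≠ 1), h10 1]

theorem Equi.zero (h2 : (2 : K) ≠ 0) (h3 : (3 : K) ≠ 0) (h5 : (5 : K) ≠ 0) (hb : Equi ρ b) (hF : ¬ Four b)
    {f : Fin 7 → Fin 7 → K} (hf : S14 f) (h0 : phi K b f = 0) : f = 0 := by
  have h1 := fun {i j : Fin 7} (hij : i ≠ j) => hb.const h2 h5 hF hf h0 hij
  have h4 := hf.row' 0
  rw [hf.diag, h1 (by decide : (0 : Fin 7) ≠ 2), h1 (by decide : (0 : Fin 7) ≠ 3), h1 (by decide : (0 : Fin 7) ≠ 4),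
    h1 (by decide : (0 : Fin 7) ≠ 5), h1 (by decide : (0 : Fin 7) ≠ 6)] at h4
  have h6 : (2 * 3 : K) * f 0 1 = 0 := by linear_combination h4
  have h7 : f 0 1 = 0 := (mul_eq_zero.1 h6).resolve_left (mul_ne_zero h2 h3)
  funext i j
  by_cases hij : i = j
  · rw [hij, hf.diag]; rfl
  · rw [h1 hij, h7]; rfl

/-! ### Dimensions -/

/-- the space of the functions `S14` -/
def S14s (K : Type*) [Field K] : Submodule K (Fin 7 → Fin 7 → K) where
  carrier := {f | S14 f}
  zero_mem' := ⟨fun _ => rfl, fun _ _ => rfl, fun _ => by simp⟩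
  add_mem' {f g} hf hg := ⟨fun i => by rw [Pi.add_apply, Pi.add_apply, hf.diag, hg.diag, add_zero],
    fun i j => by rw [Pi.add_apply, Pi.add_apply, Pi.add_apply, Pi.add_apply, hf.symm, hg.symm],
    fun i => by simp only [Pi.add_apply, Finset.sum_add_distrib, hf.row, hg.row, add_zero]⟩
  smul_mem' a f hf := ⟨fun i => by rw [Pi.smul_apply, Pi.smul_apply, hf.diag, smul_zero],
    fun i j => by rw [Pi.smul_apply, Pi.smul_apply, Pi.smul_apply, Pi.smul_apply, hf.symm],
    fun i => by simp only [Pi.smul_apply, ← Finset.smul_sum, hf.row, smul_zero]⟩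

theorem mem_S14s {f : Fin 7 → Fin 7 → K} : f ∈ S14s K ↔ S14 f := Iff.rfl

theorem fourteen_le : 14 ≤ Module.finrank K (S14s K) := by
  let L : (Fin 7 → Fin 7 → K) →ₗ[K] (Fin 7 → K) × ({p : Fin 7 × Fin 7 // p.1 < p.2} → K) × (Fin 7 → K) :=
    { toFun := fun f => (fun i => f i i, fun p => f p.1.1 p.1.2 - f p.1.2 p.1.1, fun i => ∑ j, f i j)
      map_add' := by
        intro f g
        ext i <;> simp [Finset.sum_add_distrib] <;> ring
      map_smul' := by
        intro a f
        ext i <;> simp [Finset.mul_sum] <;> ring }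
  have h1 : LinearMap.ker L ≤ S14s K := by
    intro f hf
    have hf' : L f = 0 := hf
    have e1 : ∀ i, f i i = 0 := fun i => congrFun (congrArg Prod.fst hf') i
    have e2 : ∀ p : {p : Fin 7 × Fin 7 // p.1 < p.2}, f p.1.1 p.1.2 - f p.1.2 p.1.1 = 0 := fun p =>
      congrFun (congrArg (fun x => x.2.1) hf') p
    have e3 : ∀ i, ∑ j, f i j = 0 := fun i => congrFun (congrArg (fun x => x.2.2) hf') i
    refine mem_S14s.2 ⟨e1, fun i j => ?_, e3⟩
    rcases lt_trichotomy i j with h | h | h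
    · exact sub_eq_zero.1 (e2 ⟨(i, j), h⟩)
    · rw [h]
    · exact (sub_eq_zero.1 (e2 ⟨(j, i), h⟩)).symm
  have h2 := LinearMap.finrank_range_add_finrank_ker L
  have h3 := Submodule.finrank_mono h1
  have h4 : Module.finrank K (LinearMap.range L) ≤ 35 := by
    refine (Submodule.finrank_le _).trans ?_
    rw [Module.finrank_prod, Module.finrank_prod, Module.finrank_fintype_fun_eq_card,
      Module.finrank_fintype_fun_eq_card]
    have : Fintype.card {p : Fin 7 × Fin 7 // p.1 < p.2} = 21 := by decide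
    rw [this, Fintype.card_fin]
  have h5 : Module.finrank K (Fin 7 → Fin 7 → K) = 49 := by
    rw [Module.finrank_pi_fintype]
    simp
  omega

/-- the image of `S14` -/
def US (K : Type*) [Field K] {W : Type*} [AddCommGroup W] [Module K W] (b : Fin 7 → Fin 7 → W) : Submodule K W :=
  (S14s K).map (phi K b)

theorem Equi.US_stable (hb : Equi ρ b) (g : T7) {x : W} (hx : x ∈ US K b) : ρ g x ∈ US K b := by
  obtain ⟨f, hf, rfl⟩ := hx
  refine ⟨fun i j => f ((g⁻¹ : Perm (Fin 7)) i) ((g⁻¹ : Perm (Fin 7)) j),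
    (mem_S14s.1 hf).comp _, ?_⟩
  rw [← hb.phi_comp g]
  simp

theorem Equi.finrank_US (h2 : (2 : K) ≠ 0) (h3 : (3 : K) ≠ 0) (h5 : (5 : K) ≠ 0) (hb : Equi ρ b) (hF : ¬ Four b) :
    14 ≤ Module.finrank K (US K b) := by
  have h1 : Function.Injective ((phi K b).domRestrict (S14s K)) := by
    rw [← LinearMap.ker_eq_bot, eq_bot_iff]
    rintro ⟨f, hf⟩ h0
    have : f = 0 := hb.zero h2 h3 h5 hF hf (LinearMap.mem_ker.1 h0)
    exact Subtype.ext this
  have h4 : LinearMap.range ((phi K b).domRestrict (S14s K)) = US K b := by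
    rw [US, LinearMap.range_domRestrict]
  have h6 := LinearMap.finrank_range_of_inj h1
  rw [h4] at h6
  rw [h6]
  exact fourteen_le

theorem Equi.finrank_US' (h2 : (2 : K) ≠ 0) (h5 : (5 : K) ≠ 0) (hb : Equi ρ b) (hF : ¬ Four b) :
    13 ≤ Module.finrank K (US K b) := by
  let ψ := (phi K b).domRestrict (S14s K)
  have h4 : LinearMap.range ψ = US K b := by
    rw [US, LinearMap.range_domRestrict]
  have h6 := LinearMap.finrank_range_add_finrank_ker ψ
  have h7 : Module.finrank K (LinearMap.ker ψ) ≤ 1 := by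
    have h9 : (LinearMap.ker ψ).map (S14s K).subtype ≤ K ∙ (fun i j : Fin 7 => if i = j then (0 : K) else 1) := by
      rintro _ ⟨⟨f, hf⟩, h0, rfl⟩
      have h2' := fun {i j : Fin 7} (hij : i ≠ j) => hb.const h2 h5 hF hf (LinearMap.mem_ker.1 h0) hij
      refine Submodule.mem_span_singleton.2 ⟨f 0 1, ?_⟩
      funext i j
      rw [Pi.smul_apply, Pi.smul_apply, smul_eq_mul]
      by_cases hij : i = j
      · rw [if_pos hij, mul_zero, hij]
        exact (S14.diag hf j).symm
      · rw [if_neg hij, mul_one]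
        exact (h2' hij).symm
    have h10 := Submodule.finrank_mono h9
    rw [Submodule.finrank_map_subtype_eq] at h10
    have h11 := finrank_span_le_card (R := K) ({(fun i j : Fin 7 => if i = j then (0 : K) else 1)} :
      Set (Fin 7 → Fin 7 → K))
    simp only [Set.toFinset_singleton, Finset.card_singleton] at h11
    exact h10.trans h11
  rw [h4] at h6
  have h8 := fourteen_le (K := K)
  omega

end Cfsg.Agent.H931.E6
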